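import Mathlib
import Cfsg.Agent.Lib.Frob.Complement

/-!
The complex fixed point free representation of a Frobenius complement and the relations between
two elements of order three.
-/

namespace Cfsg.Agent.Schur

open Subgroup

universe u

theorem real_cubic_bound {x : ℝ} (h1 : -1 ≤ x) (h2 : x ≤ 2) :
    |(x ^ 2 - x) * (x ^ 2 - x - 1) * (x ^ 2 - x - 2)| < 1 := by
  have hu1 : -1 / 4 ≤ x ^ 2 - x := by nlinarith [sq_nonneg (x - 1 / 2)]
  have hu2 : x ^ 2 - x ≤ 2 := by nlinarith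
  generalize x ^ 2 - x = u at hu1 hu2
  rw [abs_lt]
  constructor
  · nlinarith [mul_nonneg (sub_nonneg.2 hu1) (sq_nonneg (u - 3 / 2)), sq_nonneg (u - 3 / 2)]
  · have h3 : 0 ≤ u ^ 2 * (2 - u) := mul_nonneg (sq_nonneg u) (sub_nonneg.2 hu2)
    rcases le_total u (1 / 2) with h | h
    · nlinarith
    · rcases le_total u (3 / 2) with h' | h'
      · nlinarith
      · nlinarith

theorem complex_cubic_bound {ζ ξ : ℂ} (hζ : ‖ζ‖ = 1) (hξ : ‖ξ‖ = 1)
    (h : ζ + ζ⁻¹ + (ξ + ξ⁻¹) = 1) :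
    ‖((ζ + ζ⁻¹) ^ 2 - (ζ + ζ⁻¹)) * ((ζ + ζ⁻¹) ^ 2 - (ζ + ζ⁻¹) - 1) *
      ((ζ + ζ⁻¹) ^ 2 - (ζ + ζ⁻¹) - 2)‖ < 1 := by
  have e1 : ζ + ζ⁻¹ = ((2 * ζ.re : ℝ) : ℂ) := by
    rw [Complex.inv_eq_conj hζ, Complex.add_conj]
  have e2 : ξ + ξ⁻¹ = ((2 * ξ.re : ℝ) : ℂ) := by
    rw [Complex.inv_eq_conj hξ, Complex.add_conj]
  rw [e1, e2] at h
  have h' : 2 * ζ.re + 2 * ξ.re = 1 := by exact_mod_cast h
  have b1 := (abs_le.1 (hζ ▸ Complex.abs_re_le_norm ζ)).2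
  have b2 := (abs_le.1 (hξ ▸ Complex.abs_re_le_norm ξ)).2
  rw [e1]
  have := real_cubic_bound (x := 2 * ζ.re) (by linarith) (by linarith)
  rw [← Real.norm_eq_abs, ← Complex.norm_real] at this
  simpa using this

/-- Two roots of unity whose real parts add up to one half. -/
theorem cubic_eq_zero_of_roots {ζ ξ : ℂ} {n : ℕ} (hn : n ≠ 0) (hζ : ζ ^ n = 1) (hξ : ξ ^ n = 1)
    (h : ζ + ζ⁻¹ + (ξ + ξ⁻¹) = 1) :
    ((ζ + ζ⁻¹) ^ 2 - (ζ + ζ⁻¹)) * ((ζ + ζ⁻¹) ^ 2 - (ζ + ζ⁻¹) - 1) *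
      ((ζ + ζ⁻¹) ^ 2 - (ζ + ζ⁻¹) - 2) = 0 := by
  by_contra h0
  let K : IntermediateField ℚ ℂ := IntermediateField.adjoin ℚ {ζ, ξ}
  have hfin : FiniteDimensional ℚ K := IntermediateField.finiteDimensional_adjoin fun x hx =>
    IsIntegral.of_pow (Nat.pos_of_ne_zero hn) (by
      rcases hx with rfl | rfl
      · rw [hζ]; exact isIntegral_one
      · rw [hξ]; exact isIntegral_one)
  let _ : NumberField K := { to_charZero := K.charZero, to_finiteDimensional := hfin }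
  let z : K := ⟨ζ, IntermediateField.subset_adjoin _ _ (by simp)⟩
  let w : K := ⟨ξ, IntermediateField.subset_adjoin _ _ (by simp)⟩
  have hz : z ^ n = 1 := Subtype.ext hζ
  have hw : w ^ n = 1 := Subtype.ext hξ
  have hzw : z + z⁻¹ + (w + w⁻¹) = 1 := Subtype.ext h
  let y : K := ((z + z⁻¹) ^ 2 - (z + z⁻¹)) * ((z + z⁻¹) ^ 2 - (z + z⁻¹) - 1) *
      ((z + z⁻¹) ^ 2 - (z + z⁻¹) - 2)
  have hb : ∀ φ : K →+* ℂ, ‖φ y‖ < 1 := fun φ => by
    have := complex_cubic_bound (ζ := φ z) (ξ := φ w)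
      (Complex.norm_eq_one_of_pow_eq_one (by rw [← map_pow, hz, map_one]) hn)
      (Complex.norm_eq_one_of_pow_eq_one (by rw [← map_pow, hw, map_one]) hn)
      (by rw [← map_inv₀, ← map_inv₀, ← map_add, ← map_add, ← map_add, hzw, map_one])
    simpa only [y, map_mul, map_sub, map_pow, map_add, map_inv₀, map_one, map_ofNat] using this
  have hy0 : y ≠ 0 := fun e => h0 (congrArg Subtype.val e)
  have hzi : IsIntegral ℤ z := IsIntegral.of_pow (Nat.pos_of_ne_zero hn) (hz ▸ isIntegral_one)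
  have hzi' : IsIntegral ℤ z⁻¹ := IsIntegral.of_pow (Nat.pos_of_ne_zero hn) (by
    rw [inv_pow, hz, inv_one]; exact isIntegral_one)
  have hx : IsIntegral ℤ ((z + z⁻¹) ^ 2 - (z + z⁻¹)) := ((hzi.add hzi').pow 2).sub (hzi.add hzi')
  have h2 : IsIntegral ℤ (2 : K) := by simpa using isIntegral_algebraMap (R := ℤ) (A := K) (x := 2)
  have hyi : IsIntegral ℤ y := (hx.mul (hx.sub isIntegral_one)).mul (hx.sub h2)
  obtain ⟨m, hm, hym⟩ := NumberField.Embeddings.pow_eq_one_of_norm_le_one K ℂ hy0 hyi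
    fun φ => (hb φ).le
  have := Complex.norm_eq_one_of_pow_eq_one (ζ := algebraMap K ℂ y)
    (by rw [← map_pow, hym, map_one]) hm.ne'
  exact (hb (algebraMap K ℂ)).ne this

variable {G : Type*} [Group G]

/-- The functions killed by all norm maps of elements of prime order. -/
def critMod (G : Type*) [Group G] : Submodule ℂ (G → ℂ) where
  carrier := {f | Frob.Crit f}
  zero_mem' := Frob.Crit.zero
  add_mem' := Frob.Crit.add
  smul_mem' := fun c _ hf => Frob.Crit.map hf (AddMonoidHom.mulLeft c)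

/-- Left translation. -/
def critRep (G : Type*) [Group G] : G →* Module.End ℂ (critMod G) where
  toFun a :=
    { toFun := fun f => ⟨fun g => f.1 (a⁻¹ * g), Frob.Crit.left f.2 _⟩
      map_add' := fun _ _ => rfl
      map_smul' := fun _ _ => rfl }
  map_one' := by ext f g; simp
  map_mul' a b := by ext f g; simp [mul_assoc]

theorem nontrivial_critMod (h : Frob.IsFC G) : Nontrivial (critMod G) := by
  obtain ⟨f, h1, hf⟩ := h
  refine ⟨⟨⟨fun g => (f g : ℂ), hf.map (Int.castAddHom ℂ)⟩, 0, fun e => h1 ?_⟩⟩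
  have h2 : (f 1 : ℂ) = 0 := congrFun (congrArg Subtype.val e) 1
  exact_mod_cast h2

theorem critRep_free [Finite G] {a : G} (a1 : a ≠ 1) {v : critMod G} (h : critRep G a v = v) :
    v = 0 := by
  obtain ⟨n, hn⟩ := Frob.exists_prime_orderOf_mem_zpowers a1
  have h2 : ∀ g, v.1 (a⁻¹ * g) = v.1 g := fun g => congrFun (congrArg Subtype.val h) g
  have h3 : ∀ (i : ℕ) g, v.1 (a ^ i * g) = v.1 g := fun i g => by
    induction i with
    | zero => simp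
    | succ i ih => rw [← h2, pow_succ', mul_assoc, inv_mul_cancel_left, ih]
  ext g
  have h4 := Frob.Crit.nsmul_eq_zero v.2 hn (h3 n) g
  rw [nsmul_eq_mul, mul_eq_zero, Nat.cast_eq_zero] at h4
  exact h4.resolve_left hn.ne_zero

/-- A representation in a ring in which `ρ g - 1` is regular for `g ≠ 1`, with the five possible
relations between two elements of order three. -/
structure FreeHom {R : Type*} [Ring R] (ρ : G →* R) : Prop where
  cancel : ∀ g : G, g ≠ 1 → ∀ x : R, (ρ g - 1) * x = 0 → x = 0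
  pair : ∀ a b : G, orderOf a = 3 → orderOf b = 3 → a * b = 1 ∨ a = b ∨
    ρ (a * b) + ρ (a * b)⁻¹ = 0 ∨ ρ (a * b) + ρ (a * b)⁻¹ = 1 ∨
    (ρ (a * b) + ρ (a * b)⁻¹) ^ 2 = ρ (a * b) + ρ (a * b)⁻¹ + 1

section cancel

variable {R : Type*} [Ring R] {ρ : G →* R}

theorem order_three_rel (hc : ∀ g : G, g ≠ 1 → ∀ x : R, (ρ g - 1) * x = 0 → x = 0) {a : G}
    (ha : orderOf a = 3) : ρ a⁻¹ = -1 - ρ a := by
  have h3 : a ^ 3 = 1 := ha ▸ pow_orderOf_eq_one a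
  have h1 : a ≠ 1 := fun e => by simp [e] at ha
  have h4 : a⁻¹ = a * a := by rw [eq_comm, ← mul_eq_one_iff_eq_inv, ← h3, pow_three']
  have h5 : ρ a * ρ a * ρ a = 1 := by rw [← map_mul, ← map_mul, ← map_one ρ, ← h3, pow_three']
  have := hc a h1 (ρ a * ρ a + ρ a + 1) (by
    calc _ = ρ a * ρ a * ρ a - 1 := by noncomm_ring
      _ = 0 := by rw [h5, sub_self])
  rw [h4, map_mul, eq_sub_iff_add_eq, eq_neg_iff_add_eq_zero, this]

theorem sq_eq_neg_one_of_pow_four (hc : ∀ g : G, g ≠ 1 → ∀ x : R, (ρ g - 1) * x = 0 → x = 0)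
    {g : G} (h4 : g ^ 4 = 1) (h2 : g ^ 2 ≠ 1) : ρ g + ρ g⁻¹ = 0 := by
  have h := hc _ h2 (ρ g + ρ g⁻¹) (by
    calc _ = ρ (g ^ 2 * g) + ρ (g ^ 2 * g⁻¹) - ρ g - ρ g⁻¹ := by
          simp only [map_mul]; noncomm_ring
      _ = 0 := by
          rw [show g ^ 2 * g = g ^ 4 * g⁻¹ by group, show g ^ 2 * g⁻¹ = g by group, h4, one_mul]
          abel)
  exact h

theorem golden_of_pow_ten (hc : ∀ g : G, g ≠ 1 → ∀ x : R, (ρ g - 1) * x = 0 → x = 0)
    {g : G} (h10 : g ^ 10 = 1) (h5 : g ^ 5 ≠ 1) (h2 : g ^ 2 ≠ 1) :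
    (ρ g + ρ g⁻¹) ^ 2 = ρ g + ρ g⁻¹ + 1 := by
  have e5 : ρ (g ^ 5) + 1 = 0 := hc _ h5 _ (by
    calc _ = ρ (g ^ 5 * g ^ 5) - 1 := by simp only [map_mul]; noncomm_ring
      _ = 0 := by rw [← pow_add, h10, map_one, sub_self])
  have hi : ρ g * ρ g⁻¹ = 1 := by rw [← map_mul, mul_inv_cancel, map_one]
  have hi' : ρ g⁻¹ * ρ g = 1 := by rw [← map_mul, inv_mul_cancel, map_one]
  have e1 := hc _ h2 (ρ g ^ 4 - ρ g ^ 3 + ρ g ^ 2 - ρ g + 1) (by
    rw [map_pow] at e5 ⊢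
    calc _ = (ρ g - 1) * (ρ g ^ 5 + 1) := by noncomm_ring
      _ = 0 := by rw [e5, mul_zero])
  rw [← sub_eq_zero]
  have e2 : ∀ k : ℕ, ρ g⁻¹ * ρ g ^ (k + 1) = ρ g ^ k := fun k => by
    rw [pow_succ', ← mul_assoc, hi', one_mul]
  have e3 : ρ g⁻¹ * (ρ g⁻¹ * (ρ g ^ 4 - ρ g ^ 3 + ρ g ^ 2 - ρ g + 1)) =
      ρ g ^ 2 - ρ g + 1 - ρ g⁻¹ + ρ g⁻¹ * ρ g⁻¹ := by
    simp only [mul_add, mul_sub, e2, hi', mul_one, pow_one]
  rw [e1, mul_zero, mul_zero] at e3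
  calc _ = ρ g ^ 2 - ρ g + 1 - ρ g⁻¹ + ρ g⁻¹ * ρ g⁻¹ + (ρ g * ρ g⁻¹ - 1) + (ρ g⁻¹ * ρ g - 1) := by
        noncomm_ring
    _ = 0 := by rw [← e3, hi, hi']; simp

end cancel

section eigen

variable {V : Type*} [AddCommGroup V] [Module ℂ V] (ρ : G →* Module.End ℂ V)

theorem exists_eigen_of_add_inv {g : G} {x : ℂ} {v : V} (hv : v ≠ 0)
    (h : (ρ g + ρ g⁻¹) v = x • v) :
    ∃ (ζ : ℂ) (w : V), w ≠ 0 ∧ ρ g w = ζ • w ∧ ζ ≠ 0 ∧ ζ + ζ⁻¹ = x := by
  obtain ⟨ζ, hζ⟩ : ∃ ζ : ℂ, ζ * ζ - x * ζ + 1 = 0 := by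
    obtain ⟨d, hd⟩ := IsAlgClosed.exists_pow_nat_eq (x ^ 2 - 4) two_pos
    exact ⟨(x + d) / 2, by linear_combination hd / 4⟩
  have h0 : ζ ≠ 0 := by rintro rfl; simp at hζ
  have hx : ζ + ζ⁻¹ = x := by field_simp; linear_combination hζ
  have h1 : ρ g (ρ g v) + v = x • ρ g v := by
    have := congrArg (ρ g) h
    rwa [LinearMap.add_apply, map_add, map_smul, ← Module.End.mul_apply (ρ g) (ρ g⁻¹), ← map_mul,
      mul_inv_cancel, map_one, Module.End.one_apply] at this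
  by_cases hw : ρ g v - ζ⁻¹ • v = 0
  · exact ⟨ζ⁻¹, v, hv, sub_eq_zero.1 hw, inv_ne_zero h0, by rw [inv_inv, add_comm, hx]⟩
  · refine ⟨ζ, _, hw, ?_, h0, hx⟩
    rw [map_sub, map_smul, eq_sub_of_add_eq h1, smul_sub, smul_smul, mul_inv_cancel₀ h0, one_smul,
      ← hx, add_smul]
    abel

theorem eigen_pow {g : G} {ζ : ℂ} {w : V} (h : ρ g w = ζ • w) (k : ℕ) :
    ρ (g ^ k) w = ζ ^ k • w := by
  induction k with
  | zero => simp
  | succ k ih => rw [pow_succ', map_mul, Module.End.mul_apply, ih, map_smul, h, smul_smul, pow_succ]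

theorem eigen_pow_eq_one_iff (hf : ∀ g : G, g ≠ 1 → ∀ v : V, ρ g v = v → v = 0) {g : G} {ζ : ℂ}
    {w : V} (hw : w ≠ 0) (h : ρ g w = ζ • w) (k : ℕ) : g ^ k = 1 ↔ ζ ^ k = 1 := by
  have h1 := eigen_pow ρ h k
  constructor
  · intro e
    rw [e, map_one, Module.End.one_apply] at h1
    have : (ζ ^ k - 1) • w = 0 := by rw [sub_smul, ← h1, one_smul, sub_self]
    exact sub_eq_zero.1 ((smul_eq_zero.1 this).resolve_right hw)
  · intro e
    rw [e, one_smul] at h1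
    by_contra hne
    exact hw (hf _ hne w h1)

theorem freeHom_of_free [Finite G] [FiniteDimensional ℂ V] [Nontrivial V]
    (hf : ∀ g : G, g ≠ 1 → ∀ v : V, ρ g v = v → v = 0) : FreeHom ρ := by
  have hc : ∀ g : G, g ≠ 1 → ∀ x : Module.End ℂ V, (ρ g - 1) * x = 0 → x = 0 := fun g hg x hx => by
    ext v
    have := LinearMap.congr_fun hx v
    simp only [Module.End.mul_apply, LinearMap.sub_apply, Module.End.one_apply,
      LinearMap.zero_apply, sub_eq_zero] at this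
    exact hf g hg _ this
  refine ⟨hc, fun a b ha hb => ?_⟩
  have hsum : ρ (a * b) + ρ (a * b)⁻¹ + (ρ (a * b⁻¹) + ρ (a * b⁻¹)⁻¹) = 1 := by
    simp only [mul_inv_rev, inv_inv, map_mul, order_three_rel hc ha, order_three_rel hc hb]
    noncomm_ring
  obtain ⟨x, hx⟩ := Module.End.exists_eigenvalue (ρ (a * b) + ρ (a * b)⁻¹)
  obtain ⟨v, hv⟩ := hx.exists_hasEigenvector
  have h1 := hv.apply_eq_smul
  have h2 : (ρ (a * b⁻¹) + ρ (a * b⁻¹)⁻¹) v = (1 - x) • v := by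
    rw [eq_sub_of_add_eq' hsum, LinearMap.sub_apply, h1, sub_smul, one_smul, Module.End.one_apply]
  obtain ⟨ζ, w, hw, hζ, ζ0, eζ⟩ := exists_eigen_of_add_inv ρ hv.2 h1
  obtain ⟨ξ, u, hu, hξ, ξ0, eξ⟩ := exists_eigen_of_add_inv ρ hv.2 h2
  have pζ := eigen_pow_eq_one_iff ρ hf hw hζ
  have pξ := eigen_pow_eq_one_iff ρ hf hu hξ
  have key := cubic_eq_zero_of_roots (n := Nat.card G) Nat.card_pos.ne'
    ((pζ _).1 pow_card_eq_one') ((pξ _).1 pow_card_eq_one') (by rw [eζ, eξ]; ring)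
  rw [eζ] at key
  have iζ : ζ * ζ⁻¹ = 1 := mul_inv_cancel₀ ζ0
  have iξ : ξ * ξ⁻¹ = 1 := mul_inv_cancel₀ ξ0
  have four : ∀ η : ℂ, η ≠ 0 → η + η⁻¹ = 0 → η ^ 4 = 1 ∧ η ^ 2 ≠ 1 := fun η h0 h => by
    have i : η * η⁻¹ = 1 := mul_inv_cancel₀ h0
    have : η ^ 2 = -1 := by linear_combination η * h - i
    exact ⟨by linear_combination (η ^ 2 - 1) * this, by rw [this]; norm_num⟩
  have one : ∀ η : ℂ, η ≠ 0 → η + η⁻¹ = 2 → η ^ 1 = 1 := fun η h0 h => by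
    have i : η * η⁻¹ = 1 := mul_inv_cancel₀ h0
    have : (η - 1) ^ 2 = 0 := by linear_combination η * h - i
    rw [pow_one, ← sub_eq_zero]
    exact pow_eq_zero_iff two_ne_zero |>.1 this
  have hfac : x * (x - 1) * (x ^ 2 - x - 1) * (x - 2) * (x + 1) = 0 := by linear_combination key
  simp only [mul_eq_zero] at hfac
  rcases hfac with (((h | h) | h) | h) | h
  · obtain ⟨h4, h2⟩ := four ζ ζ0 (eζ.trans h)
    exact .inr (.inr (.inl (sq_eq_neg_one_of_pow_four hc ((pζ 4).2 h4) fun e => h2 ((pζ 2).1 e))))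
  · obtain ⟨h4, h2⟩ := four ξ ξ0 (by rw [eξ]; linear_combination -h)
    have := sq_eq_neg_one_of_pow_four hc ((pξ 4).2 h4) fun e => h2 ((pξ 2).1 e)
    rw [this, add_zero] at hsum
    exact .inr (.inr (.inr (.inl hsum)))
  · have e4 : ζ ^ 4 - ζ ^ 3 + ζ ^ 2 - ζ + 1 = 0 := by
      rw [← eζ] at h
      linear_combination ζ ^ 2 * h - (2 * ζ ^ 2 - ζ + ζ * ζ⁻¹ + 1) * iζ
    have e5 : ζ ^ 5 = -1 := by linear_combination (ζ + 1) * e4
    refine .inr (.inr (.inr (.inr (golden_of_pow_ten hc ((pζ 10).2 ?_) (fun e => ?_) fun e => ?_))))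
    · linear_combination (ζ ^ 5 - 1) * e5
    · have := (pζ 5).1 e
      rw [e5] at this
      norm_num at this
    · have e2 := (pζ 2).1 e
      have : ζ = -1 := by linear_combination e5 - (ζ ^ 3 + ζ) * e2
      rw [this] at e4
      norm_num at e4
  · exact .inl (by simpa using (pζ 1).2 (one ζ ζ0 (by rw [eζ]; linear_combination h)))
  · refine .inr (.inl ?_)
    have := (pξ 1).2 (one ξ ξ0 (by rw [eξ]; linear_combination -h))
    rwa [pow_one, mul_inv_eq_one] at this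

end eigen

theorem exists_freeHom {G : Type u} [Group G] [Finite G] (h : Frob.IsFC G) :
    ∃ (R : Type u) (_ : Ring R) (_ : Algebra ℚ R) (_ : Nontrivial R) (ρ : G →* R), FreeHom ρ :=
  have := nontrivial_critMod h
  ⟨Module.End ℂ (critMod G), inferInstance, inferInstance, inferInstance, critRep G,
    freeHom_of_free _ fun _ hg _ hv => critRep_free hg hv⟩

end Cfsg.Agent.Schur
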