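import Mathlib
import Cfsg.Agent.Lib.Schur.Quat

/-!
Systems of square roots of `-3` in a quaternion algebra: the tetrahedron and the dodecahedron.
-/

namespace Cfsg.Agent.Schur

open Quat

set_option linter.unusedTactic false
set_option linter.unreachableTactic false
set_option linter.unnecessarySeqFocus false

variable {C : Type*} [Ring C]

/-- The properties of the set of the elements `2 a + 1`, `a` of order three. -/
structure Sys (S : Set (Quat C)) : Prop where
  sq : ∀ x ∈ S, x * x = -3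
  neg : ∀ x ∈ S, -x ∈ S
  ci : ∀ p b c d, ⟨p, b, c, d⟩ ∈ S → ⟨p, b, -c, -d⟩ ∈ S
  rot : ∀ p b c d, ⟨p, b, c, d⟩ ∈ S → ⟨p, c, d, b⟩ ∈ S
  u : ⟨0, 1, 1, 1⟩ ∈ S
  good : ∀ x ∈ S, ∀ y ∈ S, x = y ∨ x = -y ∨ x * y + y * x = 2 ∨ x * y + y * x = -2 ∨
    (x * y + y * x) * (x * y + y * x) = 20
  inv : ∀ x ∈ S, ∀ y ∈ S, ∀ t, t = (x - 1) * (-y - 1) * ⟨0, 1, 0, 0⟩ → t * t = 16 → t = 4 ∨ t = -4

variable [Algebra ℚ C]

theorem canc (n : ℕ) {x y : C} (h : n • x = n • y) (hn : n ≠ 0 := by decide) : x = y := by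
  have := congrArg ((n : ℚ)⁻¹ • ·) h
  have hn' : (n : ℚ) ≠ 0 := by exact_mod_cast hn
  simpa only [← Nat.cast_smul_eq_nsmul ℚ, smul_smul, inv_mul_cancel₀ hn', one_smul] using this

theorem cast_contra [Nontrivial C] (n : ℕ) (h : n • (1 : C) = 0) (hn : n ≠ 0 := by decide) :
    False :=
  one_ne_zero (canc n (h.trans (smul_zero n).symm) hn)

namespace Sys

variable {S : Set (Quat C)} (h : Sys S)
include h

omit [Algebra ℚ C] in
theorem cj {p b c d : C} (hx : ⟨p, b, c, d⟩ ∈ S) : ⟨p, -b, c, -d⟩ ∈ S :=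
  h.rot _ _ _ _ (h.rot _ _ _ _ (h.ci _ _ _ _ (h.rot _ _ _ _ hx)))

omit [Algebra ℚ C] in
theorem ck {p b c d : C} (hx : ⟨p, b, c, d⟩ ∈ S) : ⟨p, -b, -c, d⟩ ∈ S :=
  h.rot _ _ _ _ (h.ci _ _ _ _ (h.rot _ _ _ _ (h.rot _ _ _ _ hx)))

omit [Algebra ℚ C] in
theorem neg' {b c d : C} (hx : ⟨0, b, c, d⟩ ∈ S) : ⟨0, -b, -c, -d⟩ ∈ S := by
  have := h.neg _ hx
  rwa [show -(⟨0, b, c, d⟩ : Quat C) = ⟨0, -b, -c, -d⟩ by ext <;> simp] at this

omit [Algebra ℚ C] in
theorem good' {x y : Quat C} (hx : x ∈ S) (hy : y ∈ S) :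
    x * y + y * x = 2 ∨ x * y + y * x = -2 ∨ x * y + y * x = 6 ∨ x * y + y * x = -6 ∨
      (x * y + y * x) * (x * y + y * x) = 20 := by
  rcases h.good x hx y hy with rfl | rfl | e | e | e
  · rw [h.sq x hx]; norm_num
  · rw [neg_mul, mul_neg, h.sq y hy]; norm_num
  all_goals simp [e]

theorem stepA {p b c d : C} (hx : ⟨p, b, c, d⟩ ∈ S) (hp : p ≠ 0) :
    (b + c + d) * (b + c + d) = 5 + 3 * (p * p) ∧ (b + c + d) * p + p * (b + c + d) = 0 := by
  have e : (⟨0, 1, 1, 1⟩ * ⟨p, b, c, d⟩ + ⟨p, b, c, d⟩ * ⟨0, 1, 1, 1⟩ : Quat C) =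
      ⟨-2 * (b + c + d), 2 * p, 2 * p, 2 * p⟩ := by
    ext <;> simp <;> noncomm_ring
  have h0 : 2 * p ≠ 0 := fun e => hp (canc 2 (by linear_combination (norm := (noncomm_ring <;> norm_num)) e))
  have := h.good' h.u hx
  rw [e] at this
  rcases this with e | e | e | e | e
  · exact absurd (by simpa using congrArg Quat.i e) h0
  · exact absurd (by simpa using congrArg Quat.i e) h0
  · exact absurd (by simpa using congrArg Quat.i e) h0
  · exact absurd (by simpa using congrArg Quat.i e) h0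
  · have e1 := congrArg Quat.re e
    have e2 := congrArg Quat.i e
    simp only [mul_re, mul_i, ofNat_re, ofNat_i] at e1 e2
    exact ⟨canc 4 (by linear_combination (norm := (noncomm_ring <;> norm_num)) e1), canc 4 (by linear_combination (norm := (noncomm_ring <;> norm_num)) -e2)⟩

theorem stepB [Nontrivial C] {p b c d : C} (hx : ⟨p, b, c, d⟩ ∈ S) (h1 : p * p = -1)
    (h2 : b * b + c * c + d * d = 2) (h3 : b * b * b = 2 * b) (h4 : p * b + b * p = 0)
    (h5 : c * d = d * c) : b = 0 ∨ b * b = 2 := by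
  have e : (⟨p, b, c, d⟩ * ⟨p, b, -c, -d⟩ + ⟨p, b, -c, -d⟩ * ⟨p, b, c, d⟩ : Quat C) =
      ⟨2 - 4 * (b * b), 0, 0, 0⟩ := by
    ext <;> simp only [add_re, add_i, add_j, add_k, mul_re, mul_i, mul_j, mul_k]
    · linear_combination (norm := (noncomm_ring <;> norm_num)) 2 * h1 + 2 * h2
    · linear_combination (norm := (noncomm_ring <;> norm_num)) 2 * h4 - 2 * h5
    · noncomm_ring
    · noncomm_ring
  have := h.good' hx (h.ci _ _ _ _ hx)
  rw [e] at this
  rcases this with e | e | e | e | e <;> replace e := congrArg Quat.re e <;>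
    simp only [mul_re, ofNat_re, neg_re] at e
  · exact .inl (canc 8 (by linear_combination (norm := (noncomm_ring <;> norm_num)) -(e * b) - 4 * h3))
  · exact .inl (canc 4 (by linear_combination (norm := (noncomm_ring <;> norm_num)) -(e * b) - 4 * h3))
  · exact .inl (canc 12 (by linear_combination (norm := (noncomm_ring <;> norm_num)) -(e * b) - 4 * h3))
  · exact .inr (canc 4 (by linear_combination (norm := (noncomm_ring <;> norm_num)) -e))
  · have e1 : b * b = 1 := canc 16 (by linear_combination (norm := (noncomm_ring <;> norm_num)) e - 16 * (h3 * b))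
    exact .inl (by linear_combination (norm := (noncomm_ring <;> norm_num)) (e1 * b) - h3)

theorem stepC [Nontrivial C] {p b : C} (hx : ⟨p, b, 0, 0⟩ ∈ S) (h1 : p * p = -1)
    (h2 : b * b = 2) (h4 : p * b + b * p = 0) : False := by
  have e : ((⟨p, b, 0, 0⟩ - 1) * (-⟨p, -b, 0, -0⟩ - 1) * ⟨0, 1, 0, 0⟩ : Quat C) =
      ⟨2 * (b * p + b), 0, 0, 0⟩ := by
    ext <;> simp
    · linear_combination (norm := (noncomm_ring <;> norm_num)) -h4
    · linear_combination (norm := (noncomm_ring <;> norm_num)) -h1 - h2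
  have e2 : (⟨2 * (b * p + b), 0, 0, 0⟩ * ⟨2 * (b * p + b), 0, 0, 0⟩ : Quat C) = 16 := by
    ext <;> simp
    linear_combination (norm := (noncomm_ring <;> norm_num)) 4 * (b * h4 * p) + 4 * (b * h4) - 4 * (b * b * h1) + 8 * h2
  have key : ∀ ε : ℤ, ε * ε = 1 → b * p + b = 2 * ε → False := fun ε hε e => by
    have e3 : (ε : C) * b = p + 1 := canc 2 (by
      have := Int.cast_comm ε b
      linear_combination (norm := (noncomm_ring <;> norm_num)) h2 * p + h2 - b * e + 2 * this)
    have e4 : p = 1 := canc 2 (by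
      have := Int.cast_comm ε p
      linear_combination (norm := (noncomm_ring <;> norm_num)) ε * h4 - e3 * p - p * e3 - this * b - 2 * h1)
    rw [e4] at h1
    exact cast_contra 2 (C := C) (by linear_combination (norm := (noncomm_ring <;> norm_num)) h1)
  rcases h.inv _ hx _ (h.cj hx) _ e.symm e2 with e | e <;> replace e := congrArg Quat.re e <;>
    simp only [ofNat_re, neg_re] at e
  · exact key 1 (by norm_num) (canc 2 (by push_cast; linear_combination (norm := (noncomm_ring <;> norm_num)) e))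
  · exact key (-1) (by norm_num) (canc 2 (by push_cast; linear_combination (norm := (noncomm_ring <;> norm_num)) e))

theorem re_eq_zero [Nontrivial C] {p b c d : C} (hx : ⟨p, b, c, d⟩ ∈ S) : p = 0 := by
  by_contra hp
  obtain ⟨a1, b1⟩ := h.stepA hx hp
  obtain ⟨a2, b2⟩ := h.stepA (h.ci _ _ _ _ hx) hp
  obtain ⟨a3, b3⟩ := h.stepA (h.cj hx) hp
  obtain ⟨a4, b4⟩ := h.stepA (h.ck hx) hp
  have s := h.sq _ hx
  have s1 := congrArg Quat.re s
  have s2 := congrArg Quat.i s
  have s3 := congrArg Quat.j s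
  have s4 := congrArg Quat.k s
  simp only [mul_re, mul_i, mul_j, mul_k, neg_re, neg_i, neg_j, neg_k, ofNat_re, ofNat_i, ofNat_j,
    ofNat_k] at s1 s2 s3 s4
  have pb : p * b + b * p = 0 := canc 2 (by linear_combination (norm := (noncomm_ring <;> norm_num)) b1 + b2)
  have pc : p * c + c * p = 0 := canc 2 (by linear_combination (norm := (noncomm_ring <;> norm_num)) b1 + b3)
  have pd : p * d + d * p = 0 := canc 2 (by linear_combination (norm := (noncomm_ring <;> norm_num)) b1 + b4)
  have cd : c * d = d * c := by linear_combination (norm := (noncomm_ring <;> norm_num)) s2 - pb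
  have db : d * b = b * d := by linear_combination (norm := (noncomm_ring <;> norm_num)) s3 - pc
  have bc : b * c = c * b := by linear_combination (norm := (noncomm_ring <;> norm_num)) s4 - pd
  have pp : p * p = -1 := canc 8 (by linear_combination (norm := (noncomm_ring <;> norm_num)) -a1 - a2 - a3 - a4 - 4 * s1)
  have sum : b * b + c * c + d * d = 2 := by linear_combination (norm := (noncomm_ring <;> norm_num)) pp - s1
  have cd0 : c * d = 0 := canc 4 (by linear_combination (norm := (noncomm_ring <;> norm_num)) a1 + a2 + 6 * pp - 2 * sum + 2 * cd)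
  have db0 : d * b = 0 := canc 4 (by linear_combination (norm := (noncomm_ring <;> norm_num)) a1 + a3 + 6 * pp - 2 * sum + 2 * db)
  have bc0 : b * c = 0 := canc 4 (by linear_combination (norm := (noncomm_ring <;> norm_num)) a1 + a4 + 6 * pp - 2 * sum + 2 * bc)
  have hb := h.stepB hx pp sum (by linear_combination (norm := (noncomm_ring <;> norm_num)) b * sum - bc0 * c - db0 * d + db * d) pb cd
  have hc := h.stepB (h.rot _ _ _ _ hx) pp (by linear_combination (norm := (noncomm_ring <;> norm_num)) sum)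
    (by linear_combination (norm := (noncomm_ring <;> norm_num)) c * sum - cd0 * d - bc0 * b + bc * b) pc db
  have fin : ∀ {b c d : C}, ⟨p, b, c, d⟩ ∈ S → b * b = 2 → b * c = 0 → d * b = 0 →
      p * b + b * p = 0 → False := fun {b c d} hx h2 bc0 db0 pb => by
    obtain rfl : c = 0 := canc 2 (by linear_combination (norm := (noncomm_ring <;> norm_num)) b * bc0 - h2 * c)
    obtain rfl : d = 0 := canc 2 (by linear_combination (norm := (noncomm_ring <;> norm_num)) db0 * b - d * h2)
    exact h.stepC hx pp h2 pb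
  rcases hb with hb | hb
  · rcases hc with hc | hc
    · exact fin (h.rot _ _ _ _ (h.rot _ _ _ _ hx)) (by linear_combination (norm := (noncomm_ring <;> norm_num)) sum - hb * b - hc * c) db0 cd0 pd
    · exact fin (h.rot _ _ _ _ hx) hc cd0 bc0 pc
  · exact fin hx hb bc0 db0 pb

omit [Algebra ℚ C] in
theorem pure_rel {b c d : C} (hx : ⟨0, b, c, d⟩ ∈ S) :
    b * b + c * c + d * d = 3 ∧ c * d = d * c ∧ d * b = b * d ∧ b * c = c * b := by
  have s := h.sq _ hx
  have s1 := congrArg Quat.re s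
  have s2 := congrArg Quat.i s
  have s3 := congrArg Quat.j s
  have s4 := congrArg Quat.k s
  simp only [mul_re, mul_i, mul_j, mul_k, neg_re, neg_i, neg_j, neg_k, ofNat_re, ofNat_i, ofNat_j,
    ofNat_k] at s1 s2 s3 s4
  exact ⟨by linear_combination (norm := (noncomm_ring <;> norm_num)) -s1, by linear_combination (norm := (noncomm_ring <;> norm_num)) s2, by linear_combination (norm := (noncomm_ring <;> norm_num)) s3, by linear_combination (norm := (noncomm_ring <;> norm_num)) s4⟩

theorem delta {b c d : C} (hx : ⟨0, b, c, d⟩ ∈ S) :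
    b + c + d = 1 ∨ b + c + d = -1 ∨ b + c + d = 3 ∨ b + c + d = -3 ∨
      (b + c + d) * (b + c + d) = 5 := by
  have e : (⟨0, 1, 1, 1⟩ * ⟨0, b, c, d⟩ + ⟨0, b, c, d⟩ * ⟨0, 1, 1, 1⟩ : Quat C) =
      ⟨-2 * (b + c + d), 0, 0, 0⟩ := by
    ext <;> simp <;> noncomm_ring
  have := h.good' h.u hx
  rw [e] at this
  rcases this with e | e | e | e | e <;> replace e := congrArg Quat.re e <;>
    simp only [mul_re, ofNat_re, neg_re] at e
  · exact .inr (.inl (canc 2 (by linear_combination (norm := (noncomm_ring <;> norm_num)) -e)))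
  · exact .inl (canc 2 (by linear_combination (norm := (noncomm_ring <;> norm_num)) -e))
  · exact .inr (.inr (.inr (.inl (canc 2 (by linear_combination (norm := (noncomm_ring <;> norm_num)) -e)))))
  · exact .inr (.inr (.inl (canc 2 (by linear_combination (norm := (noncomm_ring <;> norm_num)) -e))))
  · exact .inr (.inr (.inr (.inr (canc 4 (by linear_combination (norm := (noncomm_ring <;> norm_num)) e)))))

end Sys

/-- The shape of an element of a system. -/
def Concl (S : Set (Quat C)) (b c d : C) : Prop :=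
  ((b = 1 ∨ b = -1) ∧ (c = 1 ∨ c = -1) ∧ (d = 1 ∨ d = -1)) ∨
  ∃ f, f * f = f + 1 ∧ ⟨0, 0, f - 1, f⟩ ∈ S ∧ b ∈ AddSubgroup.closure {1, f} ∧
    c ∈ AddSubgroup.closure {1, f} ∧ d ∈ AddSubgroup.closure {1, f}

namespace Concl

omit [Algebra ℚ C]

variable {S : Set (Quat C)} {b c d : C}

theorem of_rot (h : Concl S c d b) : Concl S b c d := by
  rcases h with ⟨h1, h2, h3⟩ | ⟨f, h, h', h1, h2, h3⟩
  exacts [.inl ⟨h3, h1, h2⟩, .inr ⟨f, h, h', h3, h1, h2⟩]

theorem of_neg (h : Concl S (-b) c d) : Concl S b c d := by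
  rcases h with ⟨h1, h2, h3⟩ | ⟨f, h, h', h1, h2, h3⟩
  · refine .inl ⟨?_, h2, h3⟩
    rcases h1 with h1 | h1
    exacts [.inr (neg_eq_iff_eq_neg.1 h1), .inl (neg_injective h1)]
  · exact .inr ⟨f, h, h', neg_mem_iff.1 h1, h2, h3⟩

theorem of_cj (h : Concl S (-b) c (-d)) : Concl S b c d :=
  h.of_neg.of_rot.of_neg.of_rot.of_rot

theorem of_neg' (h : Concl S (-b) (-c) (-d)) : Concl S b c d :=
  h.of_cj.of_rot.of_rot.of_neg.of_rot

end Concl

namespace Sys

variable {S : Set (Quat C)} (h : Sys S) [Nontrivial C]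
include h

theorem aux1 {b c d : C} (hx : ⟨0, b, c, d⟩ ∈ S) (h1 : -b + c + -d = 1)
    (h2 : -b + -c + d = 1 ∨ -b + -c + d = -1) : Concl S b c d := by
  obtain ⟨s, cd, -, -⟩ := h.pure_rel hx
  rcases h2 with h2 | h2
  · obtain rfl : b = -1 := canc 2 (by linear_combination (norm := (noncomm_ring <;> norm_num)) -h1 - h2)
    obtain rfl : c = d := canc 2 (by linear_combination (norm := (noncomm_ring <;> norm_num)) h1 - h2)
    have cc : c * c = 1 := canc 2 (by linear_combination (norm := (noncomm_ring <;> norm_num)) s)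
    have c0 : c ≠ 0 := by rintro rfl; simp at cc
    have : c = 1 ∨ c = -1 := by
      rcases h.delta hx with e | e | e | e | e
      · exact .inl (canc 2 (by linear_combination (norm := (noncomm_ring <;> norm_num)) e))
      · exact absurd (canc 2 (by linear_combination (norm := (noncomm_ring <;> norm_num)) e)) c0
      · obtain rfl : c = 2 := canc 2 (by linear_combination (norm := (noncomm_ring <;> norm_num)) e)
        exact (cast_contra 3 (C := C) (by linear_combination (norm := (noncomm_ring <;> norm_num)) cc)).elim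
      · exact .inr (canc 2 (by linear_combination (norm := (noncomm_ring <;> norm_num)) e))
      · exact absurd (canc 4 (by linear_combination (norm := (noncomm_ring <;> norm_num)) 4 * cc - e)) c0
    exact .inl ⟨.inr rfl, this, this⟩
  · obtain rfl : b = 0 := canc 2 (by linear_combination (norm := (noncomm_ring <;> norm_num)) -h1 - h2)
    obtain rfl : c = d + 1 := by linear_combination (norm := (noncomm_ring <;> norm_num)) h1
    have hd : -d ∈ AddSubgroup.closure {1, -d} := AddSubgroup.subset_closure (by simp)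
    have h1 : 1 ∈ AddSubgroup.closure {1, -d} := AddSubgroup.subset_closure (by simp)
    refine .inr ⟨-d, canc 2 (by linear_combination (norm := (noncomm_ring <;> norm_num)) s), ?_, zero_mem _, add_mem (neg_mem_iff.1 hd) h1,
      neg_mem_iff.1 hd⟩
    have := h.neg' hx
    rwa [neg_zero, neg_add'] at this

theorem aux2 {b c d : C} (hx : ⟨0, b, c, d⟩ ∈ S) (h1 : -b + c + -d = 1 ∨ -b + c + -d = -1)
    (h2 : -b + -c + d = 1 ∨ -b + -c + d = -1) : Concl S b c d := by
  rcases h1 with h1 | h1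
  · exact h.aux1 hx h1 h2
  · refine (h.aux1 (h.neg' hx) (by linear_combination (norm := (noncomm_ring <;> norm_num)) -h1) ?_).of_neg'
    rcases h2 with h2 | h2
    exacts [.inr (by linear_combination (norm := (noncomm_ring <;> norm_num)) -h2), .inl (by linear_combination (norm := (noncomm_ring <;> norm_num)) -h2)]

omit [Nontrivial C] in
theorem delta' {b c d : C} (hx : ⟨0, b, c, d⟩ ∈ S) :
    ∃ n : ℕ, (b + c + d) * (b + c + d) = n ∧ 1 ≤ n ∧
      (n < 5 → b + c + d = 1 ∨ b + c + d = -1) := by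
  rcases h.delta hx with e | e | e | e | e
  · exact ⟨1, by simp [e], le_rfl, fun _ => .inl e⟩
  · exact ⟨1, by simp [e], le_rfl, fun _ => .inr e⟩
  · exact ⟨9, by rw [e]; norm_num, by norm_num, fun h => by omega⟩
  · exact ⟨9, by rw [e]; norm_num, by norm_num, fun h => by omega⟩
  · exact ⟨5, by rw [e]; norm_num, by norm_num, fun h => by omega⟩

theorem concl {b c d : C} (hx : ⟨0, b, c, d⟩ ∈ S) : Concl S b c d := by
  have := algebraRat.charZero C
  obtain ⟨s, -⟩ := h.pure_rel hx
  obtain ⟨n1, a1, p1, b1⟩ := h.delta' hx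
  obtain ⟨n2, a2, p2, b2⟩ := h.delta' (h.ci _ _ _ _ hx)
  obtain ⟨n3, a3, p3, b3⟩ := h.delta' (h.cj hx)
  obtain ⟨n4, a4, p4, b4⟩ := h.delta' (h.ck hx)
  have hs : n1 + n2 + n3 + n4 = 12 := by
    have : ((n1 + n2 + n3 + n4 : ℕ) : C) = (12 : ℕ) := by
      push_cast
      linear_combination (norm := (noncomm_ring <;> norm_num)) 4 * s - a1 - a2 - a3 - a4
    exact_mod_cast this
  have t : ∀ {x y : C}, x = 1 ∨ x = -1 → y = x → y = 1 ∨ y = -1 := fun h e => e ▸ h
  have r1 := h.rot _ _ _ _ hx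
  have r2 := h.rot _ _ _ _ r1
  have : n1 < 5 ∧ n2 < 5 ∨ n1 < 5 ∧ n3 < 5 ∨ n1 < 5 ∧ n4 < 5 ∨ n2 < 5 ∧ n3 < 5 ∨
    n2 < 5 ∧ n4 < 5 ∨ n3 < 5 ∧ n4 < 5 := by omega
  rcases this with ⟨c1, c2⟩ | ⟨c1, c2⟩ | ⟨c1, c2⟩ | ⟨c1, c2⟩ | ⟨c1, c2⟩ | ⟨c1, c2⟩
  · exact (h.aux2 (h.cj hx) (t (b1 c1) (by abel)) (t (b2 c2) (by abel))).of_cj
  · exact (h.aux2 (h.cj r1) (t (b1 c1) (by abel)) (t (b3 c2) (by abel))).of_cj.of_rot
  · exact (h.aux2 (h.cj r2) (t (b1 c1) (by abel)) (t (b4 c2) (by abel))).of_cj.of_rot.of_rot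
  · exact (h.aux2 r2 (t (b2 c1) (by abel)) (t (b3 c2) (by abel))).of_rot.of_rot
  · exact (h.aux2 r1 (t (b4 c2) (by abel)) (t (b2 c1) (by abel))).of_rot
  · exact h.aux2 hx (b3 c1) (b4 c2)

omit h in
theorem golden_sum_ne {f g : C} (hf : f * f = f + 1) (hg : g * g = g + 1) (m : ℤ) (hm : m ≠ 1)
    (e : f + g = m) : False := by
  have := algebraRat.charZero C
  obtain rfl : g = m - f := by linear_combination (norm := (noncomm_ring <;> norm_num)) e
  have hc := Int.cast_comm m f
  have h1 : ((1 - m : ℤ) : C) * (2 * f - m) = 0 := by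
    push_cast
    linear_combination (norm := (noncomm_ring <;> norm_num)) hg - hf - hc
  have h2 : 2 * f - m = 0 := by
    have := congrArg (((1 - m : ℤ) : ℚ)⁻¹ • ·) h1
    have hn' : ((1 - m : ℤ) : ℚ) ≠ 0 := by exact_mod_cast sub_ne_zero.2 hm.symm
    simpa only [← zsmul_eq_mul, ← Int.cast_smul_eq_zsmul ℚ, smul_smul, inv_mul_cancel₀ hn',
      one_smul, smul_zero] using this
  have h3 : (((m - 1) ^ 2 : ℤ) : C) = (5 : ℤ) := by
    push_cast
    linear_combination (norm := (noncomm_ring <;> norm_num)) 4 * hf - h2 * (2 * f + m) + 2 * h2 - 2 * hc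
  have h4 : (m - 1) ^ 2 = 5 := by exact_mod_cast h3
  have h5 : m - 1 ≤ 2 := by nlinarith
  have h6 : -2 ≤ m - 1 := by nlinarith
  generalize m - 1 = k at h4 h5 h6
  interval_cases k <;> simp at h4

theorem golden_unique {f g : C} (hf : f * f = f + 1) (hg : g * g = g + 1)
    (hx : ⟨0, 0, f - 1, f⟩ ∈ S) (hy : ⟨0, 0, g - 1, g⟩ ∈ S) : f = g := by
  obtain ⟨v, hv⟩ : ∃ v, v = 4 * (f * g + g * f) - 4 * f - 4 * g + 2 := ⟨_, rfl⟩
  obtain ⟨D, hD⟩ : ∃ D, D = f * g - g * f := ⟨_, rfl⟩
  have hσ : (2 * f - 1) * (2 * f - 1) = 5 := by linear_combination (norm := (noncomm_ring <;> norm_num)) 4 * hf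
  have hρ : (2 * g - 1) * (2 * g - 1) = 5 := by linear_combination (norm := (noncomm_ring <;> norm_num)) 4 * hg
  have hDD : 16 * (D * D) = v * v - 100 := by
    rw [hv, hD]
    linear_combination (norm := (noncomm_ring <;> norm_num)) -2 * ((2 * f - 1) * hρ * (2 * f - 1)) - 2 * ((2 * g - 1) * hσ * (2 * g - 1)) -
      10 * hσ - 10 * hρ
  have hvv : v * v = 4 * v + 60 := by
    have e : (⟨0, 0, f - 1, f⟩ * ⟨0, -0, g - 1, -g⟩ + ⟨0, -0, g - 1, -g⟩ * ⟨0, 0, f - 1, f⟩ :
        Quat C) = ⟨2 * f + 2 * g - 2, -2 * D, 0, 0⟩ := by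
      rw [hD]
      ext <;> simp <;> noncomm_ring <;> norm_num
    have := h.good' hx (h.cj hy)
    rw [e] at this
    rcases this with e | e | e | e | e <;> replace e := congrArg Quat.re e <;>
      simp only [mul_re, ofNat_re, neg_re] at e
    · exact (golden_sum_ne hf hg 2 (by norm_num) (canc 2 (by push_cast; linear_combination (norm := (noncomm_ring <;> norm_num)) e))).elim
    · exact (golden_sum_ne hf hg 0 (by norm_num) (canc 2 (by push_cast; linear_combination (norm := (noncomm_ring <;> norm_num)) e))).elim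
    · exact (golden_sum_ne hf hg 4 (by norm_num) (canc 2 (by push_cast; linear_combination (norm := (noncomm_ring <;> norm_num)) e))).elim
    · exact (golden_sum_ne hf hg (-2) (by norm_num) (canc 2 (by push_cast; linear_combination (norm := (noncomm_ring <;> norm_num)) e))).elim
    · linear_combination (norm := (noncomm_ring <;> norm_num)) -4 * e - hDD + 4 * hσ + 4 * hρ - 4 * hv
  have e : (⟨0, 0, f - 1, f⟩ * ⟨0, 0, g - 1, g⟩ + ⟨0, 0, g - 1, g⟩ * ⟨0, 0, f - 1, f⟩ :
      Quat C) = ⟨2 * f + 2 * g - 2 - 2 * (f * g + g * f), 0, 0, 0⟩ := by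
    ext <;> simp only [add_re, add_i, add_j, add_k, mul_re, mul_i, mul_j, mul_k] <;>
      linear_combination (norm := (noncomm_ring <;> norm_num))
  have v2 : v ≠ 2 := by
    rintro rfl
    exact cast_contra 64 (C := C) (by linear_combination (norm := (noncomm_ring <;> norm_num)) -hvv)
  have := h.good _ hx _ hy
  rw [e] at this
  rcases this with e | e | e | e | e
  · exact congrArg Quat.k e
  · have e1 := congrArg Quat.j e
    have e2 := congrArg Quat.k e
    simp only [neg_j, neg_k] at e1 e2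
    exact (cast_contra 2 (C := C) (by linear_combination (norm := (noncomm_ring <;> norm_num)) e2 - e1)).elim
  · replace e := congrArg Quat.re e
    simp only [ofNat_re] at e
    have v6 : v = -6 := by linear_combination (norm := (noncomm_ring <;> norm_num)) hv - 2 * e
    have D0 : D ≠ 0 := by
      rintro rfl
      rw [v6] at hDD
      exact cast_contra 64 (C := C) (by linear_combination (norm := (noncomm_ring <;> norm_num)) hDD)
    have e' : (⟨0, 0, f - 1, f⟩ * ⟨0, g, 0, g - 1⟩ + ⟨0, g, 0, g - 1⟩ * ⟨0, 0, f - 1, f⟩ :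
        Quat C) = ⟨f - g + 2, D, D, -D⟩ := by
      rw [hD]
      ext <;> simp only [add_re, add_i, add_j, add_k, mul_re, mul_i, mul_j, mul_k]
      · exact canc 2 (by linear_combination (norm := (noncomm_ring <;> norm_num)) e)
      all_goals noncomm_ring
    have := h.good' hx (h.rot _ _ _ _ (h.rot _ _ _ _ hy))
    rw [e'] at this
    refine (D0 ?_).elim
    rcases this with e | e | e | e | e <;> replace e := congrArg Quat.i e <;>
      simp only [mul_i, ofNat_i, neg_i, neg_zero] at e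
    iterate 4 exact e
    refine canc 4 ?_
    rw [hD] at e ⊢
    linear_combination (norm := (noncomm_ring <;> norm_num)) e - hf * g + g * hf + f * hg - hg * f
  · replace e := congrArg Quat.re e
    simp only [ofNat_re, neg_re] at e
    exact (v2 (by linear_combination (norm := (noncomm_ring <;> norm_num)) hv - 2 * e)).elim
  · replace e := congrArg Quat.re e
    simp only [ofNat_re, mul_re] at e
    refine (v2 (canc 8 ?_)).elim
    have : (v + 2) * (v + 2) = 80 := by rw [hv]; linear_combination (norm := (noncomm_ring <;> norm_num)) 4 * e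
    linear_combination (norm := (noncomm_ring <;> norm_num)) this - hvv

/-- Either all elements of the system are vertices of the cube, or all coordinates lie in a
common golden ring. -/
theorem classify :
    (∀ x ∈ S, x.re = 0 ∧ (x.i = 1 ∨ x.i = -1) ∧ (x.j = 1 ∨ x.j = -1) ∧ (x.k = 1 ∨ x.k = -1)) ∨
    ∃ f, f * f = f + 1 ∧ ⟨0, 0, f - 1, f⟩ ∈ S ∧ ∀ x ∈ S, x.re = 0 ∧
      x.i ∈ AddSubgroup.closure {1, f} ∧ x.j ∈ AddSubgroup.closure {1, f} ∧
      x.k ∈ AddSubgroup.closure {1, f} := by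
  by_cases hf : ∃ f, f * f = f + 1 ∧ ⟨0, 0, f - 1, f⟩ ∈ S
  · obtain ⟨f, hf, hx⟩ := hf
    refine .inr ⟨f, hf, hx, fun ⟨p, b, c, d⟩ hy => ?_⟩
    obtain rfl := h.re_eq_zero hy
    refine ⟨rfl, ?_⟩
    rcases h.concl hy with ⟨h1, h2, h3⟩ | ⟨g, hg, hz, h1⟩
    · have t : ∀ {x : C}, x = 1 ∨ x = -1 → x ∈ AddSubgroup.closure {1, f} := by
        have h1 : 1 ∈ AddSubgroup.closure {1, f} := AddSubgroup.subset_closure (by simp)
        rintro _ (rfl | rfl)
        exacts [h1, neg_mem h1]
      exact ⟨t h1, t h2, t h3⟩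
    · obtain rfl := h.golden_unique hf hg hx hz
      exact h1
  · refine .inl fun ⟨p, b, c, d⟩ hy => ?_
    obtain rfl := h.re_eq_zero hy
    refine ⟨rfl, (h.concl hy).resolve_right ?_⟩
    rintro ⟨g, hg, hz, -⟩
    exact hf ⟨g, hg, hz⟩

end Sys

end Cfsg.Agent.Schur
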