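import Mathlib
import Cfsg.Agent.Lib.Schur.FreeRep
import Cfsg.Agent.Lib.Schur.Icos
import Cfsg.Agent.Lib.Schur.Icosian

/-!
The elements of order three of a Frobenius complement.
-/

namespace Cfsg.Agent.Schur

open Subgroup Quat

set_option linter.unusedTactic false
set_option linter.unreachableTactic false
set_option linter.unnecessarySeqFocus false

universe u

variable {G : Type*} [Group G]

namespace FreeHom

section ring

variable {R : Type*} [Ring R] {ρ : G →* R} (h : FreeHom ρ)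
include h

theorem injective [Nontrivial R] : Function.Injective ρ := by
  rw [injective_iff_map_eq_one]
  intro g hg
  by_contra h1
  exact one_ne_zero (h.cancel g h1 1 (by rw [hg, sub_self, zero_mul]))

theorem inv_three {a : G} (ha : orderOf a = 3) : ρ a⁻¹ = -1 - ρ a := order_three_rel h.cancel ha

theorem sq_three {a : G} (ha : orderOf a = 3) : ρ a * ρ a = -1 - ρ a := by
  have : ρ a * ρ a⁻¹ = 1 := by rw [← map_mul, mul_inv_cancel, map_one]
  rw [h.inv_three ha] at this
  linear_combination (norm := (noncomm_ring <;> norm_num)) -this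

theorem s_eq {a b : G} (ha : orderOf a = 3) (hb : orderOf b = 3) :
    ρ (a * b) + ρ (a * b)⁻¹ = ρ a * ρ b + ρ b * ρ a + ρ a + ρ b + 1 := by
  rw [mul_inv_rev, map_mul, map_mul, h.inv_three ha, h.inv_three hb]
  noncomm_ring

theorem comp {R' : Type*} [Ring R'] (e : R ≃+* R') : FreeHom (e.toMonoidHom.comp ρ) where
  cancel g hg x hx := by
    have := h.cancel g hg (e.symm x) (e.injective (by simpa using hx))
    simpa using this
  pair a b ha hb := by
    have := h.pair a b ha hb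
    simp only [← e.injective.eq_iff (a := _ + _), ← e.injective.eq_iff (a := _ ^ _), map_add,
      map_zero, map_one, map_pow] at this
    exact this

theorem good {a b : G} (ha : orderOf a = 3) (hb : orderOf b = 3) :
    a = b ∨ a = b⁻¹ ∨
    (2 * ρ a + 1) * (2 * ρ b + 1) + (2 * ρ b + 1) * (2 * ρ a + 1) = 2 ∨
    (2 * ρ a + 1) * (2 * ρ b + 1) + (2 * ρ b + 1) * (2 * ρ a + 1) = -2 ∨
    ((2 * ρ a + 1) * (2 * ρ b + 1) + (2 * ρ b + 1) * (2 * ρ a + 1)) *
      ((2 * ρ a + 1) * (2 * ρ b + 1) + (2 * ρ b + 1) * (2 * ρ a + 1)) = 20 := by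
  have e : (2 * ρ a + 1) * (2 * ρ b + 1) + (2 * ρ b + 1) * (2 * ρ a + 1) =
      4 * (ρ (a * b) + ρ (a * b)⁻¹) - 2 := by
    rw [h.s_eq ha hb]
    linear_combination (norm := (noncomm_ring <;> norm_num))
  rw [e]
  rcases h.pair a b ha hb with e | e | e | e | e
  · exact .inr (.inl (eq_inv_of_mul_eq_one_left e))
  · exact .inl e
  · rw [e]; norm_num
  · rw [e]; norm_num
  · refine .inr (.inr (.inr (.inr ?_)))
    generalize ρ (a * b) + ρ (a * b)⁻¹ = s at e
    linear_combination (norm := (noncomm_ring <;> norm_num)) 16 * e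

theorem exists_pair_zero [Algebra ℚ R] {a b : G} (ha : orderOf a = 3) (hb : orderOf b = 3)
    (h1 : a ≠ b) (h2 : a ≠ b⁻¹) : ∃ a b : G, orderOf a = 3 ∧ orderOf b = 3 ∧
      ρ a * ρ b + ρ b * ρ a + ρ a + ρ b + 1 = 0 := by
  rcases h.good ha hb with e | e | e | e | e
  · exact absurd e h1
  · exact absurd e h2
  · refine ⟨a, b⁻¹, ha, by rwa [orderOf_inv], canc 4 ?_⟩
    rw [h.inv_three hb]
    linear_combination (norm := (noncomm_ring <;> norm_num)) -e
  · exact ⟨a, b, ha, hb, canc 4 (by linear_combination (norm := (noncomm_ring <;> norm_num)) e)⟩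
  · have hc : orderOf (a * b * a⁻¹) = 3 := by simpa [hb] using (MulAut.conj a).orderOf_eq b
    have hd : orderOf (a⁻¹ * b * a) = 3 := by simpa [hb] using (MulAut.conj a⁻¹).orderOf_eq b
    refine ⟨_, _, hc, hd, ?_⟩
    obtain ⟨x, hx⟩ : ∃ x, x = 2 * ρ a + 1 := ⟨_, rfl⟩
    obtain ⟨y, hy⟩ : ∃ y, y = 2 * ρ b + 1 := ⟨_, rfl⟩
    have xx : x * x = -3 := by rw [hx]; linear_combination (norm := (noncomm_ring <;> norm_num)) 4 * h.sq_three ha
    have yy : y * y = -3 := by rw [hy]; linear_combination (norm := (noncomm_ring <;> norm_num)) 4 * h.sq_three hb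
    rw [← hx, ← hy] at e
    obtain ⟨c, hc'⟩ : ∃ c, c = 2 * ρ (a * b * a⁻¹) + 1 := ⟨_, rfl⟩
    obtain ⟨d, hd'⟩ : ∃ d, d = 2 * ρ (a⁻¹ * b * a) + 1 := ⟨_, rfl⟩
    have c4 : 4 * c = (x - 1) * y * (-x - 1) := by
      rw [hc', hx, hy, map_mul, map_mul, h.inv_three ha]
      linear_combination (norm := (noncomm_ring <;> norm_num)) 4 * h.sq_three ha
    have d4 : 4 * d = (-x - 1) * y * (x - 1) := by
      rw [hd', hx, hy, map_mul, map_mul, h.inv_three ha]
      linear_combination (norm := (noncomm_ring <;> norm_num)) 4 * h.sq_three ha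
    have key : (4 * c) * (4 * d) + (4 * d) * (4 * c) = -32 := by
      rw [c4, d4]
      obtain ⟨P, hP⟩ : ∃ P, P = x * y + y * x := ⟨_, rfl⟩
      obtain ⟨w, hw⟩ : ∃ w, w = x * y - y * x := ⟨_, rfl⟩
      have Px : x * P = P * x := by rw [hP]; linear_combination (norm := (noncomm_ring <;> norm_num)) xx * y - y * xx
      have Py : y * P = P * y := by rw [hP]; linear_combination (norm := (noncomm_ring <;> norm_num)) yy * x - x * yy
      have e1 : (x - 1) * y * (-x - 1) = (-(P * x) - 2 * y) - w := by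
        rw [hP, hw]; linear_combination (norm := (noncomm_ring <;> norm_num)) y * xx
      have e2 : (-x - 1) * y * (x - 1) = (-(P * x) - 2 * y) + w := by
        rw [hP, hw]; linear_combination (norm := (noncomm_ring <;> norm_num)) y * xx
      have e3 : w * w = -16 := by
        rw [hw]
        linear_combination (norm := (noncomm_ring <;> norm_num)) e - 2 * (x * yy * x) - 2 * (y * xx * y) + 6 * xx + 6 * yy
      rw [← hP] at e
      have e4 : (-(P * x) - 2 * y) * (-(P * x) - 2 * y) = -32 := by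
        linear_combination (norm := (noncomm_ring <;> norm_num)) P * Px * x + P * P * xx - e + 2 * (Py * x) - 2 * (P * hP) + 4 * yy
      rw [e1, e2]
      linear_combination (norm := (noncomm_ring <;> norm_num)) 2 * e4 - 2 * e3
    refine canc 64 ?_
    rw [hc', hd'] at key
    linear_combination (norm := (noncomm_ring <;> norm_num)) key

end ring

end FreeHom

/-- A free representation in a quaternion algebra containing the binary tetrahedral group. -/
structure Tetra {C : Type*} [Ring C] (ρ : G →* Quat C) (a i j : G) : Prop where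
  free : FreeHom ρ
  ord : orderOf a = 3
  a_eq : 2 * ρ a + 1 = ⟨0, 1, 1, 1⟩
  i_eq : ρ i = ⟨0, 1, 0, 0⟩
  j_eq : ρ j = ⟨0, 0, 1, 0⟩
  i_mem : i ∈ closure {x : G | orderOf x = 3}
  j_mem : j ∈ closure {x : G | orderOf x = 3}

theorem exists_tetra {G : Type u} [Group G] [Finite G] (h : Frob.IsFC G) {a b : G}
    (ha : orderOf a = 3) (hb : orderOf b = 3) (h1 : a ≠ b) (h2 : a ≠ b⁻¹) :
    ∃ (C : Type u) (_ : Ring C) (_ : Algebra ℚ C) (_ : Nontrivial C) (ρ : G →* Quat C) (a i j : G),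
      Tetra ρ a i j := by
  obtain ⟨R, _, _, _, ρ, hρ⟩ := exists_freeHom h
  obtain ⟨a, b, ha, hb, e⟩ := hρ.exists_pair_zero ha hb h1 h2
  have A2 := hρ.sq_three ha
  have B2 := hρ.sq_three hb
  have hi : ρ (a * b)⁻¹ = -(ρ a * ρ b) := by
    rw [← hρ.s_eq ha hb, map_mul] at e
    exact eq_neg_of_add_eq_zero_right e
  have hj : ρ (b * a)⁻¹ = -(ρ b * ρ a) := by
    have := hρ.s_eq hb ha
    rw [map_mul] at this
    linear_combination (norm := (noncomm_ring <;> norm_num)) this + e
  have hk : ρ (a * b)⁻¹ * ρ (b * a)⁻¹ = ρ a - ρ b := by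
    rw [hi, hj]
    linear_combination (norm := (noncomm_ring <;> norm_num)) ρ a * B2 * ρ a - A2 - ρ a * e + A2 * ρ b + A2
  have hp : IsPair (ρ (a * b)⁻¹) (ρ (b * a)⁻¹) := by
    refine ⟨?_, ?_, ?_⟩
    · nth_rewrite 1 [hi]
      rw [← map_mul, neg_mul, ← map_mul, mul_inv_cancel, map_one]
    · nth_rewrite 1 [hj]
      rw [← map_mul, neg_mul, ← map_mul, mul_inv_cancel, map_one]
    · rw [hk, hi, hj]
      linear_combination (norm := (noncomm_ring <;> norm_num)) ρ b * A2 * ρ b - B2 - ρ b * e + B2 * ρ a + B2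
  obtain ⟨φ, φi, φj⟩ := Quat.exists_equiv hp
  have hm : ∀ {x y : G}, orderOf x = 3 → orderOf y = 3 →
      (x * y)⁻¹ ∈ closure {x : G | orderOf x = 3} := fun hx hy =>
    inv_mem (mul_mem (subset_closure hx) (subset_closure hy))
  refine ⟨_, inferInstance, inferInstance, inferInstance, φ.toMonoidHom.comp ρ, a, (a * b)⁻¹,
    (b * a)⁻¹, hρ.comp φ, ha, ?_, φi, φj, hm ha hb, hm hb ha⟩
  have : 2 * ρ a + 1 = ρ (a * b)⁻¹ + ρ (b * a)⁻¹ + ρ (a * b)⁻¹ * ρ (b * a)⁻¹ := by
    rw [hk, hi, hj]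
    linear_combination (norm := (noncomm_ring <;> norm_num)) e
  have h3 := congrArg φ this
  simp only [map_add, map_mul, map_ofNat, map_one, φi, φj] at h3
  refine Eq.trans h3 ?_
  ext <;> simp

theorem Quat.canc {C : Type*} [Ring C] [Algebra ℚ C] (n : ℕ) {x y : Quat C} (h : n • x = n • y)
    (hn : n ≠ 0 := by decide) : x = y :=
  Quat.ext (Schur.canc n (congrArg Quat.re h) hn) (Schur.canc n (congrArg Quat.i h) hn)
    (Schur.canc n (congrArg Quat.j h) hn) (Schur.canc n (congrArg Quat.k h) hn)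

namespace Tetra

variable {C : Type*} [Ring C] {ρ : G →* Quat C} {a i j : G} (h : Tetra ρ a i j)
include h

theorem i_inv : ρ i⁻¹ = ⟨0, -1, 0, 0⟩ := by
  have : ρ i * ⟨0, -1, 0, 0⟩ = 1 := by rw [h.i_eq]; ext <;> simp
  calc ρ i⁻¹ = ρ i⁻¹ * (ρ i * ⟨0, -1, 0, 0⟩) := by rw [this, mul_one]
    _ = _ := by rw [← mul_assoc, ← map_mul, inv_mul_cancel, map_one, one_mul]

theorem j_inv : ρ j⁻¹ = ⟨0, 0, -1, 0⟩ := by
  have : ρ j * ⟨0, 0, -1, 0⟩ = 1 := by rw [h.j_eq]; ext <;> simp
  calc ρ j⁻¹ = ρ j⁻¹ * (ρ j * ⟨0, 0, -1, 0⟩) := by rw [this, mul_one]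
    _ = _ := by rw [← mul_assoc, ← map_mul, inv_mul_cancel, map_one, one_mul]

omit h in
theorem conj_eq (t x : G) : 2 * ρ (t * x * t⁻¹) + 1 = ρ t * (2 * ρ x + 1) * ρ t⁻¹ := by
  have : ρ t * ρ t⁻¹ = 1 := by rw [← map_mul, mul_inv_cancel, map_one]
  rw [map_mul, map_mul]
  linear_combination (norm := (noncomm_ring <;> norm_num)) -this

theorem sys [Algebra ℚ C] : Sys ((fun x => 2 * ρ x + 1) '' {x : G | orderOf x = 3}) where
  sq := by
    rintro _ ⟨x, hx, rfl⟩
    linear_combination (norm := (noncomm_ring <;> norm_num)) 4 * h.free.sq_three hx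
  neg := by
    rintro _ ⟨x, hx, rfl⟩
    refine ⟨x⁻¹, (orderOf_inv x).trans hx, ?_⟩
    simp only [h.free.inv_three hx]
    linear_combination (norm := (noncomm_ring <;> norm_num))
  ci := by
    rintro p b c d ⟨x, hx, e⟩
    refine ⟨i * x * i⁻¹, ((MulAut.conj i).orderOf_eq x).trans hx, ?_⟩
    simp only at e ⊢
    rw [conj_eq, e, h.i_eq, h.i_inv]
    ext <;> simp
  rot := by
    rintro p b c d ⟨x, hx, e⟩
    refine ⟨a * x * a⁻¹, ((MulAut.conj a).orderOf_eq x).trans hx, ?_⟩
    simp only at e ⊢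
    rw [conj_eq, e, h.free.inv_three h.ord]
    refine Quat.canc 4 ?_
    calc _ = (2 * ρ a + 1 - 1) * ⟨p, b, c, d⟩ * (-(2 * ρ a + 1) - 1) := by linear_combination (norm := (noncomm_ring <;> norm_num))
      _ = _ := by
        rw [h.a_eq]
        ext <;> simp <;> noncomm_ring
  u := ⟨a, h.ord, h.a_eq⟩
  good := by
    rintro _ ⟨x, hx, rfl⟩ _ ⟨y, hy, rfl⟩
    rcases h.free.good hx hy with rfl | rfl | e
    · exact .inl rfl
    · refine .inr (.inl ?_)
      simp only [h.free.inv_three hy]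
      linear_combination (norm := (noncomm_ring <;> norm_num))
    · exact .inr (.inr e)
  inv := by
    rintro _ ⟨x, hx, rfl⟩ _ ⟨y, hy, rfl⟩ t ht htt
    have e : t = 4 * ρ (x * y⁻¹ * i) := by
      rw [ht, map_mul, map_mul, h.free.inv_three hy, h.i_eq]
      linear_combination (norm := (noncomm_ring <;> norm_num))
    by_cases h1 : x * y⁻¹ * i = 1
    · left
      rw [e, h1, map_one, mul_one]
    · right
      have := h.free.cancel _ h1 (ρ (x * y⁻¹ * i) + 1) (Quat.canc 16 (by
        rw [e] at htt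
        linear_combination (norm := (noncomm_ring <;> norm_num)) htt))
      rw [e]
      linear_combination (norm := (noncomm_ring <;> norm_num)) 4 * this

theorem eq_of_eq [Algebra ℚ C] [Nontrivial C] {x y : G} (e : 2 * ρ x + 1 = 2 * ρ y + 1) : x = y :=
  have : Nontrivial (Quat C) := ⟨⟨0, 1, fun e => zero_ne_one (congrArg Quat.re e)⟩⟩
  h.free.injective (Quat.canc 2 (by linear_combination (norm := (noncomm_ring <;> norm_num)) e))

/-- In the tetrahedral case every element of order three is conjugate to `a` or `a⁻¹` under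
`1, i, j, i j`. -/
theorem cube_conj [Algebra ℚ C] [Nontrivial C] {x : G} (h0 : (2 * ρ x + 1).re = 0)
    (h1 : (2 * ρ x + 1).i = 1 ∨ (2 * ρ x + 1).i = -1)
    (h2 : (2 * ρ x + 1).j = 1 ∨ (2 * ρ x + 1).j = -1)
    (h3 : (2 * ρ x + 1).k = 1 ∨ (2 * ρ x + 1).k = -1) :
    ∃ t ∈ ({1, i, j, i * j} : Set G), x = t * a * t⁻¹ ∨ x = t * a⁻¹ * t⁻¹ := by
  have a' : 2 * ρ a⁻¹ + 1 = ⟨0, -1, -1, -1⟩ := by
    have : 2 * ρ a⁻¹ + 1 = -(2 * ρ a + 1) := by rw [h.free.inv_three h.ord]; linear_combination (norm := (noncomm_ring <;> norm_num))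
    rw [this, h.a_eq]
    ext <;> simp
  have key : ∀ t b : G, 2 * ρ x + 1 = ρ t * (2 * ρ b + 1) * ρ t⁻¹ → x = t * b * t⁻¹ :=
    fun t b e => h.eq_of_eq (by rw [conj_eq, e])
  rcases h1 with h1 | h1 <;> rcases h2 with h2 | h2 <;> rcases h3 with h3 | h3
  · exact ⟨1, by simp, .inl (key _ _ (by rw [h.a_eq]; ext <;> simp [-add_re, -add_i, -add_j, -add_k, *]))⟩
  · refine ⟨i * j, by simp, .inr (key _ _ ?_)⟩
    rw [a', mul_inv_rev, map_mul, map_mul, h.i_eq, h.j_eq, h.i_inv, h.j_inv]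
    ext <;> simp [-add_re, -add_i, -add_j, -add_k, *]
  · refine ⟨j, by simp, .inr (key _ _ ?_)⟩
    rw [a', h.j_eq, h.j_inv]
    ext <;> simp [-add_re, -add_i, -add_j, -add_k, *]
  · refine ⟨i, by simp, .inl (key _ _ ?_)⟩
    rw [h.a_eq, h.i_eq, h.i_inv]
    ext <;> simp [-add_re, -add_i, -add_j, -add_k, *]
  · refine ⟨i, by simp, .inr (key _ _ ?_)⟩
    rw [a', h.i_eq, h.i_inv]
    ext <;> simp [-add_re, -add_i, -add_j, -add_k, *]
  · refine ⟨j, by simp, .inl (key _ _ ?_)⟩
    rw [h.a_eq, h.j_eq, h.j_inv]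
    ext <;> simp [-add_re, -add_i, -add_j, -add_k, *]
  · refine ⟨i * j, by simp, .inl (key _ _ ?_)⟩
    rw [h.a_eq, mul_inv_rev, map_mul, map_mul, h.i_eq, h.j_eq, h.i_inv, h.j_inv]
    ext <;> simp [-add_re, -add_i, -add_j, -add_k, *]
  · exact ⟨1, by simp, .inr (key _ _ (by rw [a']; ext <;> simp [-add_re, -add_i, -add_j, -add_k, *]))⟩

end Tetra

open Matrix MatrixGroups

/-- The correspondence between icosians and matrices modulo five. -/
def IcosRel {C : Type*} [Ring C] (ρ : G →* Quat C) (e : ZPhi →+* C) (g : G) (M : SL(2, ZMod 5)) :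
    Prop :=
  ∃ (n : ℕ) (y : Quat ZPhi), Quat.map e y = 2 ^ n * ρ g ∧ icosRed y = 2 ^ n * M.1 ∧ nrm y = 4 ^ n

namespace IcosRel

variable {C : Type*} [Ring C] {ρ : G →* Quat C} {e : ZPhi →+* C}

theorem one : IcosRel ρ e 1 1 := ⟨0, 1, by simp, by simp, by simp [nrm]⟩

theorem mul {g g' : G} {M M' : SL(2, ZMod 5)} (h : IcosRel ρ e g M) (h' : IcosRel ρ e g' M') :
    IcosRel ρ e (g * g') (M * M') := by
  obtain ⟨n, y, h1, h2, h3⟩ := h
  obtain ⟨m, z, k1, k2, k3⟩ := h'
  refine ⟨n + m, y * z, ?_, ?_, by rw [nrm_mul, h3, k3, pow_add]⟩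
  · rw [map_mul, h1, k1, map_mul, pow_add]
    exact ((Commute.ofNat_right _ 2).pow_right m).mul_mul_mul_comm _ _
  · rw [map_mul, h2, k2, pow_add]
    exact ((Commute.ofNat_right _ 2).pow_right m).mul_mul_mul_comm _ _

theorem two_pow_cancel (n : ℕ) {M N : Matrix (Fin 2) (Fin 2) (ZMod 5)}
    (h : 2 ^ n * M = 2 ^ n * N) : M = N := by
  have h1 : (3 : Matrix (Fin 2) (Fin 2) (ZMod 5)) ^ n * 2 ^ n = 1 := by
    rw [← (Commute.ofNat_right _ 2).mul_pow, show (3 * 2 : Matrix (Fin 2) (Fin 2) (ZMod 5)) = 1 by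
      decide, one_pow]
  rw [← one_mul M, ← h1, mul_assoc, h, ← mul_assoc, h1, one_mul]

theorem unique (he : Function.Injective e) {g : G} {M M' : SL(2, ZMod 5)} (h : IcosRel ρ e g M)
    (h' : IcosRel ρ e g M') : M = M' := by
  obtain ⟨n, y, h1, h2, -⟩ := h
  obtain ⟨m, z, k1, k2, -⟩ := h'
  have : 2 ^ m * y = 2 ^ n * z := Quat.map_injective he (by
    simp only [map_mul, map_pow, map_ofNat, h1, k1, ← mul_assoc, ← pow_add, add_comm])
  have h3 := congrArg icosRed this
  simp only [map_mul, map_pow, map_ofNat, h2, k2, ← mul_assoc, ← pow_add, add_comm n m] at h3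
  exact Subtype.ext (two_pow_cancel _ h3)

theorem of_three {x : G} {y : Quat ZPhi} (h1 : Quat.map e y = 2 * ρ x + 1)
    {M : SL(2, ZMod 5)} (h2 : icosRed y = 2 * M.1 + 1) (h3 : nrm (y - 1) = 4) :
    IcosRel ρ e x M :=
  ⟨1, y - 1, by rw [map_sub, h1]; simp, by rw [map_sub, h2]; simp, by simpa using h3⟩

end IcosRel

namespace Tetra

variable {C : Type*} [Ring C] [Algebra ℚ C] [Nontrivial C] {ρ : G →* Quat C} {a i j : G}
  (h : Tetra ρ a i j)
include h

theorem exists_equiv_SL {f : C} (hf : f * f = f + 1) {x₀ : G} (hx₀ : orderOf x₀ = 3)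
    (ex₀ : 2 * ρ x₀ + 1 = ⟨0, 0, f - 1, f⟩)
    (hX : ∀ x : G, orderOf x = 3 → (2 * ρ x + 1).re = 0 ∧
      (2 * ρ x + 1).i ∈ AddSubgroup.closure {1, f} ∧ (2 * ρ x + 1).j ∈ AddSubgroup.closure {1, f} ∧
      (2 * ρ x + 1).k ∈ AddSubgroup.closure {1, f}) :
    Nonempty (closure {x : G | orderOf x = 3} ≃* SL(2, ZMod 5)) := by
  have := algebraRat.charZero C
  have he := phiLift_injective f hf
  have hE := Quat.map_injective he
  set e := phiLift f hf
  have hr : ∀ z ∈ AddSubgroup.closure {1, f}, ∃ w, e w = z := fun z hz => by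
    obtain ⟨m, n, rfl⟩ := AddSubgroup.mem_closure_pair.1 hz
    exact ⟨⟨m, n⟩, by simp [e, phiLift_apply]⟩
  have h3 : ∀ x : G, orderOf x = 3 → ∃ (y : Quat ZPhi) (M : SL(2, ZMod 5)),
      Quat.map e y = 2 * ρ x + 1 ∧ icosRed y = 2 * M.1 + 1 ∧ IcosRel ρ e x M := fun x hx => by
    obtain ⟨h0, h1, h2, h3⟩ := hX x hx
    obtain ⟨b, hb⟩ := hr _ h1
    obtain ⟨c, hc⟩ := hr _ h2
    obtain ⟨d, hd⟩ := hr _ h3
    have e1 : Quat.map e ⟨0, b, c, d⟩ = 2 * ρ x + 1 := by
      ext <;> simp only [Quat.map_apply, map_zero, h0, hb, hc, hd]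
    have e2 : (⟨0, b, c, d⟩ * ⟨0, b, c, d⟩ : Quat ZPhi) = -3 := hE (by
      rw [map_mul, e1, map_neg, map_ofNat]
      exact h.sys.sq _ ⟨x, hx, rfl⟩)
    have e3 : nrm (⟨0, b, c, d⟩ - 1 : Quat ZPhi) = 4 := by
      have := congrArg Quat.re e2
      simp only [mul_re, neg_re, ofNat_re] at this
      simp only [nrm, sub_re, sub_i, sub_j, sub_k, one_re, one_i, one_j, one_k]
      linear_combination -this
    let M : SL(2, ZMod 5) := ⟨(3 : ZMod 5) • icosRed (⟨0, b, c, d⟩ - 1), by
      rw [det_smul, det_icosRed, e3, map_ofNat]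
      decide⟩
    have e4 : icosRed ⟨0, b, c, d⟩ = 2 * M.1 + 1 := by
      simp only [M, map_sub, map_one, two_mul, ← add_smul]
      rw [show (3 + 3 : ZMod 5) = 1 by decide, one_smul, sub_add_cancel]
    exact ⟨_, M, e1, e4, .of_three e1 e4 e3⟩
  have hall : ∀ g : closure {x : G | orderOf x = 3}, ∃ M, IcosRel ρ e g M := fun ⟨g, hg⟩ => by
    induction hg using closure_induction'' with
    | mem x hx => obtain ⟨-, M, -, -, h⟩ := h3 x hx; exact ⟨M, h⟩
    | inv_mem x hx => obtain ⟨-, M, -, -, h⟩ := h3 x⁻¹ ((orderOf_inv x).trans hx); exact ⟨M, h⟩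
    | one => exact ⟨1, .one⟩
    | mul x y _ _ hx hy => exact ⟨_, hx.choose_spec.mul hy.choose_spec⟩
  choose θ hθ using hall
  let θ' : closure {x : G | orderOf x = 3} →* SL(2, ZMod 5) :=
    MonoidHom.mk' θ fun x y => (hθ _).unique he ((hθ x).mul (hθ y))
  have hinj : ∀ x y (hx : orderOf x = 3) (hy : orderOf y = 3),
      θ ⟨x, subset_closure hx⟩ = θ ⟨y, subset_closure hy⟩ → x = y := fun x y hx hy exy => by
    obtain ⟨u, M, u1, u2, u3⟩ := h3 x hx
    obtain ⟨v, N, v1, v2, v3⟩ := h3 y hy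
    obtain rfl : M = N := (u3.unique he (hθ ⟨x, subset_closure hx⟩)).trans
      (exy.trans ((hθ ⟨y, subset_closure hy⟩).unique he v3))
    have uu : u * u = -3 := hE (by
      rw [map_mul, u1, map_neg, map_ofNat]
      exact h.sys.sq _ ⟨x, hx, rfl⟩)
    have key : icosRed (u * v + v * u) = -6 := by
      have := congrArg icosRed uu
      rw [map_mul, map_neg, map_ofNat] at this
      rw [map_add, map_mul, map_mul, v2, ← u2, this]
      norm_num
    have t : ∀ c : Quat ZPhi, u * v + v * u = c → icosRed c = -6 := fun c hc => hc ▸ key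
    rcases h.free.good hx hy with e | e | e | e | e
    · exact e
    · have : u = -v := hE (by
        rw [map_neg, u1, v1, e, h.free.inv_three hy]
        linear_combination (norm := (noncomm_ring <;> norm_num)))
      have := t 6 (by rw [← neg_eq_iff_eq_neg] at this; rw [← this, mul_neg, neg_mul, uu]; norm_num)
      rw [map_ofNat] at this
      exact absurd this (by decide)
    · have := t 2 (hE (by simp only [map_add, map_mul, u1, v1, e, map_ofNat]))
      rw [map_ofNat] at this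
      exact absurd this (by decide)
    · have := t (-2) (hE (by simp only [map_add, map_mul, u1, v1, e, map_ofNat, map_neg]))
      rw [map_neg, map_ofNat] at this
      exact absurd this (by decide)
    · have : (u * v + v * u) * (u * v + v * u) = 20 :=
        hE (by simp only [map_add, map_mul, u1, v1, e, map_ofNat])
      have := congrArg icosRed this
      rw [map_mul, key, map_ofNat] at this
      exact absurd this (by decide)
  refine ⟨MulEquiv.ofBijective θ' ⟨?_, ?_⟩⟩
  · rw [injective_iff_map_eq_one]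
    intro k hk
    have hc : closure {x : G | orderOf x = 3} ≤ centralizer {(k : G)} := by
      rw [closure_le]
      intro x hx
      have hx' : orderOf (k * x * (k : G)⁻¹) = 3 := ((MulAut.conj (k : G)).orderOf_eq x).trans hx
      have := hinj _ _ hx' hx (by
        have : θ' (k * ⟨x, subset_closure hx⟩ * k⁻¹) = θ' ⟨x, subset_closure hx⟩ := by
          rw [map_mul, map_mul, map_inv, hk]; simp
        exact this)
      exact mem_centralizer_singleton_iff.2 (mul_inv_eq_iff_eq_mul.1 this).symm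
    obtain ⟨n, y, y1, y2, y3⟩ := hθ k
    have hk' : θ k = 1 := hk
    replace y2 : icosRed y = 2 ^ n := by rw [y2, hk']; exact mul_one _
    have comm : ∀ (t : G) (z : Quat ZPhi), t ∈ closure {x : G | orderOf x = 3} →
        ρ t = Quat.map e z → z * y = y * z := fun t z ht hz => hE (by
      have := congrArg ρ (mem_centralizer_singleton_iff.1 (hc ht))
      rw [map_mul, map_mul] at this
      rw [map_mul, map_mul, y1, ← hz, mul_assoc, ← this, ← mul_assoc, ← mul_assoc,
        ((Commute.ofNat_right _ 2).pow_right n).eq])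
    have ci := comm i ⟨0, 1, 0, 0⟩ h.i_mem (by rw [h.i_eq]; simp [Quat.map_apply])
    have cj := comm j ⟨0, 0, 1, 0⟩ h.j_mem (by rw [h.j_eq]; simp [Quat.map_apply])
    have c1 := congrArg Quat.j ci
    have c2 := congrArg Quat.k ci
    have c3 := congrArg Quat.k cj
    simp only [mul_j, mul_k] at c1 c2 c3
    have two : (2 : ZPhi) ≠ 0 := two_ne_zero
    have yk : y.k = 0 := mul_left_cancel₀ two (by linear_combination -c1)
    have yj : y.j = 0 := mul_left_cancel₀ two (by linear_combination c2)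
    have yi : y.i = 0 := mul_left_cancel₀ two (by linear_combination -c3)
    have yr : y.re * y.re = 2 ^ n * 2 ^ n := by
      rw [← mul_pow, show (2 * 2 : ZPhi) = 4 by norm_num, ← y3]
      simp [nrm, yi, yj, yk]
    have cast2 : ((2 ^ n : ℕ) : Quat ZPhi) = 2 ^ n := by push_cast; rfl
    rcases mul_self_eq_mul_self_iff.1 yr with yr | yr
    · have : y = 2 ^ n := by
        rw [← cast2]
        ext1 <;> simp only [natCast_re, natCast_i, natCast_j, natCast_k, yi, yj, yk, yr]
        push_cast; rfl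
      rw [this, map_pow, map_ofNat] at y1
      have : Nontrivial (Quat C) := ⟨⟨0, 1, fun e => zero_ne_one (congrArg Quat.re e)⟩⟩
      refine Subtype.ext (h.free.injective (Quat.canc (2 ^ n) ?_ (by positivity)))
      simp only [nsmul_eq_mul, OneMemClass.coe_one, map_one, mul_one]
      push_cast
      exact y1.symm
    · have : y = -2 ^ n := by
        rw [← cast2]
        ext1 <;> simp only [neg_re, neg_i, neg_j, neg_k, natCast_re, natCast_i, natCast_j,
          natCast_k, yi, yj, yk, yr, neg_zero]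
        push_cast; rfl
      rw [this, map_neg, map_pow, map_ofNat] at y2
      have := IcosRel.two_pow_cancel n (M := -1) (N := 1) (by simpa using y2)
      exact absurd this (by decide)
  · rw [← MonoidHom.range_eq_top]
    refine eq_top_of_gen ⟨⟨a, subset_closure h.ord⟩, (hθ _).unique he ?_⟩
      ⟨⟨x₀, subset_closure hx₀⟩, (hθ _).unique he ?_⟩
    · refine .of_three (y := ⟨0, 1, 1, 1⟩) ?_ (by decide) (by simp [nrm]; norm_num)
      rw [h.a_eq]
      simp [Quat.map_apply]
    · refine .of_three (y := ⟨0, 0, ⟨-1, 1⟩, ⟨0, 1⟩⟩) ?_ (by decide) (by decide)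
      rw [ex₀]
      ext <;> simp [Quat.map_apply, e, phiLift_apply, neg_add_eq_sub]

end Tetra

end Cfsg.Agent.Schur
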