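import Mathlib
import Cfsg.Agent.Lib.Schur.Tetra
import Cfsg.Agent.Lib.Schur.SLFive
import Cfsg.Agent.Lib.Schur.CyclicSylow
import Cfsg.Agent.Lib.Frob.TwoFrob
import Cfsg.Agent.Lib.Char.Burnside
import Cfsg.Agent.Lib.Cls.Solv
import Cfsg.Agent.Lib.Transfer.Frobenius

/-!
Zassenhaus' theorem on nonsolvable Frobenius complements.
-/

namespace Cfsg.Agent.Schur

open Subgroup Matrix MatrixGroups

variable {G : Type*} [Group G] [Finite G]

/-- The elements of order three of a Frobenius complement lie in at most four subgroups of order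
three or generate `SL(2,5)`. -/
theorem order_three_dichotomy (h : Frob.IsFC G) :
    (∃ a i j : G, ∀ x : G, orderOf x = 3 →
      ∃ t ∈ ({1, i, j, i * j} : Set G), x = t * a * t⁻¹ ∨ x = t * a⁻¹ * t⁻¹) ∨
    Nonempty (closure {x : G | orderOf x = 3} ≃* SL(2, ZMod 5)) := by
  by_cases h1 : ∃ a b : G, orderOf a = 3 ∧ orderOf b = 3 ∧ a ≠ b ∧ a ≠ b⁻¹
  · obtain ⟨a, b, ha, hb, h1, h2⟩ := h1
    obtain ⟨C, _, _, _, ρ, a, i, j, T⟩ := exists_tetra h ha hb h1 h2
    rcases T.sys.classify with hc | ⟨f, hf, ⟨x₀, hx₀, e⟩, hc⟩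
    · refine .inl ⟨a, i, j, fun x hx => ?_⟩
      obtain ⟨h0, h1, h2, h3⟩ := hc _ ⟨x, hx, rfl⟩
      exact T.cube_conj h0 h1 h2 h3
    · exact .inr (T.exists_equiv_SL hf hx₀ e fun x hx => hc _ ⟨x, hx, rfl⟩)
  · push Not at h1
    left
    by_cases h2 : ∃ a : G, orderOf a = 3
    · obtain ⟨a, ha⟩ := h2
      refine ⟨a, 1, 1, fun x hx => ⟨1, by simp, ?_⟩⟩
      by_cases e : x = a
      · simp [e]
      · simp [h1 x a hx ha e]
    · exact ⟨1, 1, 1, fun x hx => absurd ⟨x, hx⟩ h2⟩

theorem rank_le_two_of_isFC (h : Frob.IsFC G) {X : Subgroup G} (hX : IsPGroup 2 X) :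
    Group.rank X ≤ 2 := by
  rcases PGrp.isCyclic_or_quaternion_gens_of_rank_le_one hX ((h.subgroup X).pRankLE 2) with
    hc | ⟨-, n, x, y, -, h1, h2, -⟩
  · exact rank_le_two_of_index_le_two (C := ⊤) (by simp)
  · refine rank_le_two_of_index_le_two (C := zpowers x) (le_of_eq ?_)
    have := (zpowers x).card_mul_index
    rw [Nat.card_zpowers, h1, h2, pow_succ] at this
    exact Nat.eq_of_mul_eq_mul_left (by positivity) this

theorem isSolvable_of_not_three_dvd (h : Frob.IsFC G) (h3 : ¬ 3 ∣ Nat.card G) :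
    Group.IsSolvable G := by
  obtain ⟨P⟩ : Nonempty (Sylow 2 G) := inferInstance
  have := Transfer.frobenius_of_coprime_centralizes P fun X hX _ g hg hg2 =>
    mem_centralizer_of_rank_le (P.isPGroup'.to_le hX)
      (rank_le_two_of_isFC h (P.isPGroup'.to_le hX)) hg hg2 (by
        rw [show ∏ i ∈ Finset.Icc 1 2, (2 ^ i - 1) = 3 by decide, Nat.coprime_comm,
          Nat.prime_three.coprime_iff_not_dvd]
        exact fun e => h3 (e.trans (_root_.orderOf_dvd_natCard g)))
  obtain ⟨N, _, hN, hq⟩ := Transfer.hasNormalPComplement_iff_exists_normal.1 this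
  have := (h.subgroup N).isZGroup_of_odd (Nat.prime_two.coprime_iff_not_dvd.1 hN.symm)
  exact Cls.isSolvable_of_normal_of_quotient N inferInstance (Coprime.isSolvable_of_isPGroup hq)

theorem isSolvable_of_three_central (h : Frob.IsFC G)
    (hc : ∀ x : G, orderOf x = 3 → x ∈ center G) : Group.IsSolvable G := by
  by_cases h3 : 3 ∣ Nat.card G
  · have : Fact (Nat.Prime 3) := ⟨Nat.prime_three⟩
    obtain ⟨x, hx⟩ := exists_prime_orderOf_dvd_card' 3 h3
    obtain ⟨P⟩ : Nonempty (Sylow 3 G) := inferInstance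
    have := hasNormalPComplement_of_isCyclic_of_center P
      (h.isCyclic_of_odd (by norm_num) P.isPGroup') (Z := zpowers x)
      (IsPGroup.of_card (n := 1) (by rw [Nat.card_zpowers, hx, pow_one]))
      (by rw [Ne, zpowers_eq_bot]; rintro rfl; simp at hx) (zpowers_le.2 (hc x hx))
    obtain ⟨N, _, hN, hq⟩ := Transfer.hasNormalPComplement_iff_exists_normal.1 this
    exact Cls.isSolvable_of_normal_of_quotient N (isSolvable_of_not_three_dvd (h.subgroup N)
      (Nat.prime_three.coprime_iff_not_dvd.1 hN.symm)) (Coprime.isSolvable_of_isPGroup hq)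
  · exact isSolvable_of_not_three_dvd h h3

theorem isSolvable_of_three_normal (h : Frob.IsFC G)
    (hc : ∀ x : G, orderOf x = 3 → (zpowers x).Normal) : Group.IsSolvable G := by
  refine Cls.isSolvable_of_normal_of_quotient (commutator G)
    (isSolvable_of_three_central (h.subgroup _) fun x hx => ?_)
    (Cls.isSolvable_of_isMulCommutative (PGrp.isMulCommutative_quotient_iff.2 le_rfl))
  have := hc x (by rwa [orderOf_coe])
  exact Subgroup.mem_center_iff.2 fun g => Subtype.ext
    (commutator_le_centralizer_of_isCyclic (zpowers (x : G)) g.2 x (mem_zpowers _)).symm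

theorem isSolvable_quotient_normalCore {N : Subgroup G} (h : N.index ≤ 4) :
    Group.IsSolvable (G ⧸ N.normalCore) := by
  refine Char.solvable_of_card_dvd_pow_mul_pow (a := 3) (b := 1) Nat.prime_two Nat.prime_three ?_
  classical
  have := Fintype.ofFinite (G ⧸ N)
  rw [normalCore_eq_ker, ← index_eq_card, index_ker]
  refine (card_subgroup_dvd_card _).trans ?_
  rw [Nat.card_perm, ← index_eq_card]
  exact Nat.factorial_dvd_factorial h

theorem mem_normalizer_zpowers_of_mem {g a : G} (h : g * a * g⁻¹ ∈ zpowers a) :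
    g ∈ normalizer (zpowers a : Set G) := mem_normalizer_fintype <| by
  rintro _ ⟨n, rfl⟩
  simpa only [conj_zpow, SetLike.mem_coe] using zpow_mem h n

theorem isSolvable_of_four_conj (h : Frob.IsFC G) {a i j : G} (hc : ∀ x : G, orderOf x = 3 →
      ∃ t ∈ ({1, i, j, i * j} : Set G), x = t * a * t⁻¹ ∨ x = t * a⁻¹ * t⁻¹) :
    Group.IsSolvable G := by
  by_cases h3 : 3 ∣ Nat.card G
  swap
  · exact isSolvable_of_not_three_dvd h h3
  have : Fact (Nat.Prime 3) := ⟨Nat.prime_three⟩
  have ha : orderOf a = 3 := by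
    obtain ⟨x, hx⟩ := exists_prime_orderOf_dvd_card' 3 h3
    obtain ⟨t, -, rfl | rfl⟩ := hc x hx
    · exact ((MulAut.conj t).orderOf_eq a).symm.trans hx
    · rw [← orderOf_inv]
      exact ((MulAut.conj t).orderOf_eq a⁻¹).symm.trans hx
  set N := normalizer (zpowers a : Set G)
  have hN : N.index ≤ 4 := by
    classical
    have := Fintype.ofFinite (G ⧸ N)
    have : (Finset.univ : Finset (G ⧸ N)) ⊆ {((1 : G) : G ⧸ N), (i : G ⧸ N), (j : G ⧸ N),
        ((i * j : G) : G ⧸ N)} := by
      intro q _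
      obtain ⟨g, rfl⟩ := QuotientGroup.mk_surjective q
      obtain ⟨t, ht, e⟩ := hc (g * a * g⁻¹) (((MulAut.conj g).orderOf_eq a).trans ha)
      have : (g : G ⧸ N) = t := by
        refine (QuotientGroup.eq.2 (mem_normalizer_zpowers_of_mem ?_)).symm
        rw [show t⁻¹ * g * a * (t⁻¹ * g)⁻¹ = t⁻¹ * (g * a * g⁻¹) * t by group]
        rcases e with e | e <;> simp [e, mul_assoc]
      rw [this]
      rcases ht with rfl | rfl | rfl | rfl <;> simp
    have h4 := (Finset.card_le_card this).trans Finset.card_le_four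
    rwa [Finset.card_univ, ← Nat.card_eq_fintype_card] at h4
  refine Cls.isSolvable_of_normal_of_quotient N.normalCore
    (isSolvable_of_three_normal (h.subgroup _) fun x hx => normalizer_eq_top_iff.1
      (eq_top_iff.2 fun g _ => mem_normalizer_zpowers_of_mem ?_))
    (isSolvable_quotient_normalCore hN)
  obtain ⟨t, -, e⟩ := hc x (by rwa [orderOf_coe])
  have h1 : t⁻¹ * g * t ∈ N := by simpa using g.2 t⁻¹
  obtain ⟨n, hn⟩ := (mem_normalizer_iff.1 h1 a).1 (mem_zpowers a)
  have h2 : (g : G) * (t * a * t⁻¹) * (g : G)⁻¹ = (t * a * t⁻¹) ^ n := by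
    simp only at hn
    rw [conj_zpow, hn]
    group
  refine ⟨n, Subtype.ext ?_⟩
  simp only [coe_zpow, Subgroup.coe_mul, Subgroup.coe_inv]
  rcases e with e | e <;> rw [e]
  · exact h2.symm
  · rw [← _root_.inv_inj, ← _root_.inv_zpow]
    simpa [mul_assoc] using h2.symm

theorem card_order_three_le_or (h : Frob.IsFC G) : Nat.card {x : G // orderOf x = 3} ≤ 8 ∨
    Nonempty (closure {x : G | orderOf x = 3} ≃* SL(2, ZMod 5)) := by
  classical
  refine (order_three_dichotomy h).imp_left fun ⟨a, i, j, hc⟩ => ?_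
  have : {x : G | orderOf x = 3} ⊆ (((({1, i, j, i * j} : Finset G).image fun t => t * a * t⁻¹) ∪
      (({1, i, j, i * j} : Finset G).image fun t => t * a⁻¹ * t⁻¹) : Finset G) : Set G) := by
    intro x hx
    obtain ⟨t, ht, e⟩ := hc x hx
    have ht' : t ∈ ({1, i, j, i * j} : Finset G) := by simpa using ht
    rw [Finset.mem_coe, Finset.mem_union, Finset.mem_image, Finset.mem_image]
    exact e.imp (fun e => ⟨t, ht', e.symm⟩) fun e => ⟨t, ht', e.symm⟩
  refine (Set.ncard_le_ncard this).trans ?_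
  rw [Set.ncard_coe_finset]
  exact (Finset.card_union_le _ _).trans (add_le_add
    (Finset.card_image_le.trans Finset.card_le_four) (Finset.card_image_le.trans Finset.card_le_four))

/-- Zassenhaus' theorem. -/
theorem zassenhaus (h : Frob.IsFC G) (hs : ¬ Group.IsSolvable G) :
    Nonempty (closure {x : G | orderOf x = 3} ≃* SL(2, ZMod 5)) :=
  (order_three_dichotomy h).resolve_left fun ⟨_, _, _, hc⟩ => hs (isSolvable_of_four_conj h hc)

instance closure_order_three_characteristic (G : Type*) [Group G] :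
    (closure {x : G | orderOf x = 3}).Characteristic :=
  characteristic_iff_map_le.2 fun φ => by
    rw [MonoidHom.map_closure, closure_le]
    rintro _ ⟨x, hx, rfl⟩
    exact subset_closure ((φ.orderOf_eq x).trans hx)

theorem not_isSolvable_SL5 : ¬ Group.IsSolvable SL(2, ZMod 5) :=
  Core.not_isSolvable_of_isQuasisimple isQuasisimple_SL5

omit [Finite G] in
theorem not_isSolvable_of_equiv_SL5 {K : Subgroup G} (e : K ≃* SL(2, ZMod 5)) :
    ¬ Group.IsSolvable G := fun _ =>
  not_isSolvable_SL5 (Group.isSolvable_of_surjective (f := e.toMonoidHom) e.surjective)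

/-- A Frobenius complement is solvable if and only if it has no subgroup `SL(2,5)`. -/
theorem isSolvable_iff_no_SL5 (h : Frob.IsFC G) :
    Group.IsSolvable G ↔ ∀ K : Subgroup G, ¬ Nonempty (K ≃* SL(2, ZMod 5)) :=
  ⟨fun hs _ ⟨e⟩ => not_isSolvable_of_equiv_SL5 e hs,
    fun hK => by_contra fun hs => hK _ (zassenhaus h hs)⟩

theorem card_order_three_le_of_isSolvable (h : Frob.IsFC G) (hs : Group.IsSolvable G) :
    Nat.card {x : G // orderOf x = 3} ≤ 8 :=
  (card_order_three_le_or h).resolve_right fun ⟨e⟩ => not_isSolvable_of_equiv_SL5 e hs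

theorem card_order_three_of_not_isSolvable (h : Frob.IsFC G) (hs : ¬ Group.IsSolvable G) :
    Nat.card {x : G // orderOf x = 3} = 20 := by
  obtain ⟨e⟩ := zassenhaus h hs
  rw [← card_order_three_SL5]
  refine Nat.card_congr (Equiv.trans ?_ (e.toEquiv.subtypeEquiv
    (p := fun x => orderOf x = 3) fun x => by simp))
  exact
    { toFun := fun x => ⟨⟨x.1, subset_closure x.2⟩, by rw [← orderOf_coe]; exact x.2⟩
      invFun := fun x => ⟨x.1.1, by rw [orderOf_coe]; exact x.2⟩
      left_inv := fun _ => rfl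
      right_inv := fun _ => rfl }

/-- A normal subgroup `SL(2,5)` of a Frobenius complement gives a map onto `A₅` or `S₅` whose
kernel is the centralizer, a group with cyclic Sylow subgroups. -/
theorem exists_hom_perm_five (h : Frob.IsFC G) {L : Subgroup G} [L.Normal]
    (e : L ≃* SL(2, ZMod 5)) : ∃ f : G →* Equiv.Perm (Fin 5),
      alternatingGroup (Fin 5) ≤ f.range ∧ IsZGroup f.ker := by
  have h5 : Nat.card (Sylow 2 L) = 5 := by
    rw [← card_sylow_two_SL5]
    exact le_antisymm
      (Nat.card_le_card_of_surjective _ (Sylow.mapSurjective_surjective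
        (f := e.symm.toMonoidHom) e.symm.surjective 2))
      (Nat.card_le_card_of_surjective _ (Sylow.mapSurjective_surjective
        (f := e.toMonoidHom) e.surjective 2))
  let φ : Sylow 2 L ≃ Fin 5 := Finite.equivFinOfCardEq h5
  let f₀ : G →* Equiv.Perm (Sylow 2 L) :=
    (MulAction.toPermHom (MulAut L) (Sylow 2 L)).comp MulAut.conjNormal
  let f : G →* Equiv.Perm (Fin 5) := φ.permCongrHom.toMonoidHom.comp f₀
  have hker : f.ker = f₀.ker := by
    ext g
    simp [f, MonoidHom.mem_ker]
  have hq : IsQuasisimple L := (Core.isQuasisimple_congr e).2 isQuasisimple_SL5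
  have hZ : (f.comp L.subtype).ker ≤ center L := by
    refine (Core.le_center_or_eq_top_of_isQuasisimple hq _).resolve_right fun ht => ?_
    have : Nontrivial (Sylow 2 L) := Finite.one_lt_card_iff_nontrivial.1 (by omega)
    obtain ⟨P, Q, hPQ⟩ := exists_pair_ne (Sylow 2 L)
    obtain ⟨g, rfl⟩ := MulAction.exists_smul_eq L P Q
    have hg : (g : G) ∈ f₀.ker := hker ▸ (show g ∈ (f.comp L.subtype).ker from ht ▸ mem_top g)
    have := congrArg (· P) (MonoidHom.mem_ker.1 hg)
    exact hPQ this.symm
  refine ⟨f, ?_, ?_⟩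
  · refine le_trans (Equiv.Perm.alternatingGroup_le_of_index_le_two ?_)
      (show (f.comp L.subtype).range ≤ f.range from fun _ ⟨x, hx⟩ => ⟨x, hx⟩)
    have h1 := (f.comp L.subtype).ker.card_mul_index
    have h2 := (f.comp L.subtype).range.card_mul_index
    have h3 : Nat.card (f.comp L.subtype).ker ≤ 2 := (card_le_of_le hZ).trans
      ((Nat.card_congr (centerCongr e).toEquiv).trans_le card_center_SL5_le)
    rw [index_ker, Nat.card_congr e.toEquiv, card_SL5] at h1
    rw [Nat.card_perm, Nat.card_fin, show Nat.factorial 5 = 120 from rfl] at h2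
    by_contra h4
    nlinarith
  · have hC : L ≤ centralizer (f.ker : Set G) := by
      refine Core.le_centralizer_of_commutator_le_centralizer
        (Core.commutator_eq_of_isQuasisimple hq) fun x hx y hy => ?_
      have := hZ (x := ⟨x, commutator_le_left _ _ hx⟩) (commutator_le_right L f.ker hx)
      exact congrArg Subtype.val (Subgroup.mem_center_iff.1 this ⟨y, hy⟩)
    refine ⟨fun p hp P => ?_⟩
    have := Fact.mk hp
    rcases PGrp.isCyclic_or_quaternion_gens_of_rank_le_one P.isPGroup'
      (((h.subgroup _).subgroup _).pRankLE p) with hc | ⟨rfl, n, x, y, hn, -, hx, -, -, hy⟩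
    · exact hc
    exfalso
    have hy2 : orderOf (((y : f.ker) : G) ^ 2) = 2 := by
      rw [← coe_pow, ← coe_pow, orderOf_coe, orderOf_coe, hy, orderOf_pow' _ (by positivity), hx,
        Nat.gcd_eq_right (pow_dvd_pow _ (by omega)), Nat.pow_div (by omega) two_pos,
        show n - (n - 1) = 1 by omega, pow_one]
    obtain ⟨i, j, i4, i2, ij, i2j⟩ := exists_order_four_SL5
    obtain ⟨i, rfl⟩ := e.surjective i
    obtain ⟨j, rfl⟩ := e.surjective j
    simp only [← map_pow, ← map_mul, ne_eq, EmbeddingLike.apply_eq_iff_eq, map_eq_one_iff _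
      e.injective] at i4 i2 ij i2j
    have hi2 : orderOf ((i : G) ^ 2) = 2 := by
      rw [← coe_pow, orderOf_coe]
      exact orderOf_eq_prime (by rw [← pow_mul, i4]) i2
    set t : G := ((y : f.ker) : G)
    have ti : Commute t i := hC i.2 t (y : f.ker).2
    have tj : Commute t j := hC j.2 t (y : f.ker).2
    have e2 := h.eq_of_orderOf_eq_two hy2 hi2
    have h1 : (t * i) ^ 2 = 1 := by
      rw [ti.mul_pow, e2, ← pow_add, ← coe_pow, i4, coe_one]
    have h2 : Commute (t * i) j := by
      by_cases h0 : t * i = 1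
      · rw [h0]; exact Commute.one_left _
      · exact (Subgroup.mem_center_iff.1 (h.mem_center_of_orderOf_eq_two
          (orderOf_eq_prime h1 h0)) j).symm
    have h3 : Commute (i : G) j := by simpa using tj.inv_left.mul_left h2
    exact ij (Subtype.ext h3)

end Cfsg.Agent.Schur
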